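import Cfsg.Agent.L0.MetaQ
import Cfsg.Agent.H2.PCen
import Cfsg.Agent.H24.Misc2

/-!
# Rank two `p`-groups: centralisers of elementary abelian subgroups of order `p ^ 2`
-/

set_option autoImplicit false

namespace Cfsg.Agent.IS

open Subgroup

variable {G : Type*} [Group G] [Finite G] {p : ℕ} [hp : Fact p.Prime]

theorem memU (hr : PRankLE p 2 G) {U : Subgroup G} (hU : IsElementaryAbelian p U)
    (cU : Nat.card U = p ^ 2) {y : G} (hy : y ^ p = 1) (hc : y ∈ centralizer (U : Set G)) :
    y ∈ U := by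
  have h := H24.isEA_sup (H24.isEA_zpowers hy) hU (zpowers_le.2 hc)
  have h2 := hr _ h.1 h.2
  have h3 : U = zpowers y ⊔ U := eq_of_le_of_card_ge le_sup_right (by rw [cU]; exact h2)
  rw [h3]
  exact mem_sup_left (mem_zpowers y)

theorem mc (h2 : p ≠ 2) (hr : PRankLE p 2 G) {R U : Subgroup G} (hR : IsPGroup p R)
    (hU : IsElementaryAbelian p U) (cU : Nat.card U = p ^ 2) (hc : R ≤ centralizer (U : Set G)) :
    IsMetacyclic R := by
  refine BG.agemo_metacyclic hR h2 fun N hN h1 => ?_
  haveI : (N.subgroupOf R).Normal := (normal_subgroupOf_iff_le_normalizer hN.1).2 hN.2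
  have h3 := H2.PCen.relIndex_le h2 hR (fun x hx h => memU hr hU cU h (hc hx)) hc h1
  obtain ⟨k, hk⟩ := hR.index (N.subgroupOf R)
  rw [cU] at h3
  change (N.subgroupOf R).index ≤ _ at h3
  change (N.subgroupOf R).index ∣ _
  rw [hk] at h3 ⊢
  exact pow_dvd_pow p ((Nat.pow_le_pow_iff_right hp.out.one_lt).1 h3)

theorem idx (hG : IsPGroup p G) {U : Subgroup G} [hn : U.Normal] (cU : Nat.card U = p ^ 2) {x : G}
    (hxU : x ∈ U) (hx : orderOf x = p) (hz : ∀ g, g * x = x * g) :
    (centralizer (U : Set G)).index ≤ p := by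
  have p1 := hp.out.one_lt
  obtain ⟨u, hu, hux⟩ : ∃ u ∈ U, u ∉ zpowers x := by
    by_contra h
    push Not at h
    have := card_le_of_le h
    rw [cU, Nat.card_zpowers, hx] at this
    nlinarith
  have e : zpowers x ⊔ zpowers u = U := by
    have hle : zpowers x ⊔ zpowers u ≤ U := sup_le (zpowers_le.2 hxU) (zpowers_le.2 hu)
    refine eq_of_le_of_card_ge hle ?_
    obtain ⟨k, hk2, hk⟩ := (Nat.dvd_prime_pow hp.out).1 (cU ▸ card_dvd_of_le hle)
    have h1 : Nat.card (zpowers x) < Nat.card ↥(zpowers x ⊔ zpowers u) :=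
      lt_of_le_of_ne (card_le_of_le le_sup_left) fun h => hux (by
        rw [eq_of_le_of_card_ge (le_sup_left : zpowers x ≤ zpowers x ⊔ zpowers u) h.ge]
        exact mem_sup_right (mem_zpowers u))
    rw [Nat.card_zpowers, hx, hk] at h1
    rw [cU, hk]
    interval_cases k
    · simp at h1; omega
    · simp at h1
    · rfl
  have e2 : centralizer (U : Set G) = centralizer {u} := by
    refine le_antisymm (centralizer_le (Set.singleton_subset_iff.2 hu)) fun g hg => ?_
    have : U ≤ centralizer {g} := e ▸ sup_le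
      (zpowers_le.2 (mem_centralizer_singleton_iff.2 (hz g).symm))
      (zpowers_le.2 (mem_centralizer_singleton_iff.2 (mem_centralizer_singleton_iff.1 hg).symm))
    exact fun v hv => mem_centralizer_singleton_iff.1 (this hv)
  rw [e2]
  obtain ⟨k, hk⟩ := hG.index (centralizer ({u} : Set G))
  have h3 : (centralizer ({u} : Set G)).index < p ^ 2 := by
    let f : G ⧸ centralizer ({u} : Set G) → U := fun q =>
      ⟨q.out * u * q.out⁻¹, hn.conj_mem u hu _⟩
    have hf : Function.Injective f := fun a b h => by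
      have h4 : a.out * u * a.out⁻¹ = b.out * u * b.out⁻¹ := congrArg Subtype.val h
      rw [← a.out_eq, ← b.out_eq]
      refine QuotientGroup.eq.2 (mem_centralizer_singleton_iff.2 ?_)
      calc a.out⁻¹ * b.out * u = a.out⁻¹ * (b.out * u * b.out⁻¹) * b.out := by group
        _ = u * (a.out⁻¹ * b.out) := by rw [← h4]; group
    have h5 : (centralizer ({u} : Set G)).index ≤ p ^ 2 :=
      cU ▸ Nat.card_le_card_of_injective f hf
    refine lt_of_le_of_ne h5 fun h => hux ?_
    obtain ⟨q, hq⟩ := ((Nat.bijective_iff_injective_and_card f).2 ⟨hf, h.trans cU.symm⟩).2 1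
    have h6 : q.out * u * q.out⁻¹ = 1 := congrArg Subtype.val hq
    rw [show u = 1 by simpa using h6]
    exact one_mem _
  rw [hk] at h3 ⊢
  have := (Nat.pow_lt_pow_iff_right p1).1 h3
  calc p ^ k ≤ p ^ 1 := Nat.pow_le_pow_right p1.le (by omega)
    _ = p := pow_one p

omit [Finite G] hp in
theorem xs_equiv {B : Type*} [Group B] (e : G ≃* B) (h : IsExtraspecial p G) :
    IsExtraspecial p B := by
  obtain ⟨⟨h1, h2, h3⟩, h4⟩ := h
  have hc : ∀ b : B, b ∈ center B ↔ e.symm b ∈ center G := fun b => by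
    rw [mem_center_iff, mem_center_iff]
    refine ⟨fun h g => e.injective (by simp [h]), fun h g => e.symm.injective (by simp [h])⟩
  refine ⟨⟨h1.of_equiv e, le_antisymm (fun b hb => ?_) (fun b hb => ?_), ?_⟩,
    (Nat.card_congr (centerCongr e).toEquiv).symm.trans h4⟩
  · exact (hc b).2 (h2 ▸ frattini_le_comap_frattini_of_surjective
      (φ := e.symm.toMonoidHom) e.symm.surjective hb)
  · have := frattini_le_comap_frattini_of_surjective (φ := e.toMonoidHom) e.surjective
      (h2.ge ((hc b).1 hb))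
    simpa using this
  · have := map_commutator_eq G e.toMonoidHom
    rw [MonoidHom.range_eq_top.2 e.surjective, h3] at this
    ext b
    rw [hc, _root_.commutator_def, ← this]
    constructor
    · rintro ⟨a, ha, rfl⟩
      simpa using ha
    · exact fun h => ⟨_, h, by simp⟩

omit [Finite G] hp in
theorem rk_sub (hr : PRankLE p 2 G) (H : Subgroup G) : PRankLE p 2 H := fun A h1 h2 => by
  have := hr (A.map H.subtype) ⟨⟨by
    rintro ⟨_, a, ha, rfl⟩ ⟨_, b, hb, rfl⟩
    exact Subtype.ext (congrArg (fun w : A => ((w : H) : G)) (h1.1.1 ⟨a, ha⟩ ⟨b, hb⟩))⟩⟩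
    (by rintro _ ⟨a, ha, rfl⟩; exact congrArg Subtype.val (h2 a ha))
  rwa [card_map_of_injective H.subtype_injective] at this

omit [Finite G] hp in
theorem ea_map {H : Type*} [Group H] {A : Subgroup H} (h : IsElementaryAbelian p A) (f : H →* G) :
    IsElementaryAbelian p (A.map f) :=
  ⟨⟨⟨by
    rintro ⟨_, a, ha, rfl⟩ ⟨_, b, hb, rfl⟩
    refine Subtype.ext ?_
    show f a * f b = f b * f a
    rw [← map_mul, ← map_mul]
    exact congrArg (fun w : A => f w) (h.1.1.1 ⟨a, ha⟩ ⟨b, hb⟩)⟩⟩,
    by rintro _ ⟨a, ha, rfl⟩; rw [← map_pow, h.2 a ha, map_one]⟩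

end Cfsg.Agent.IS
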