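import Cfsg.Agent.H1.Quaternion
import Cfsg.Agent.H26.ES4
import Cfsg.Prelude.Def_CaseTheorems

/-! Two normal subgroups of type `(p, p)` in a normal Sylow subgroup of rank two. -/

set_option autoImplicit false

namespace Cfsg.Agent.IS

open Subgroup

namespace PSa

variable {G : Type*} [Group G]

/-- `U⟨y⟩` for `y` centralizing `U` -/
def adj (U : Subgroup G) (y : G) (h : ∀ u ∈ U, Commute u y) : Subgroup G where
  carrier := {g | ∃ u ∈ U, ∃ k : ℤ, g = u * y ^ k}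
  one_mem' := ⟨1, one_mem _, 0, by simp⟩
  mul_mem' := by
    rintro _ _ ⟨u, hu, k, rfl⟩ ⟨v, hv, l, rfl⟩
    refine ⟨u * v, mul_mem hu hv, k + l, ?_⟩
    rw [zpow_add, mul_assoc, mul_assoc, ← mul_assoc (y ^ k), ← ((h v hv).zpow_right k).eq, mul_assoc]
  inv_mem' := by
    rintro _ ⟨u, hu, k, rfl⟩
    refine ⟨u⁻¹, inv_mem hu, -k, ?_⟩
    rw [mul_inv_rev, ← zpow_neg, ((h _ (inv_mem hu)).zpow_right (-k)).eq]

theorem mp {a b c : G} (hc : ∀ g, Commute c g) (h : b * a = a * b * c) (n : ℕ) :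
    (a * b) ^ n = a ^ n * b ^ n * c ^ n.choose 2 := by
  have h1 : ∀ n : ℕ, b ^ n * a = a * b ^ n * c ^ n := by
    intro n
    induction n with
    | zero => simp
    | succ n ih =>
      rw [pow_succ' b, mul_assoc, ih, ← mul_assoc, ← mul_assoc, h, pow_succ' c, mul_assoc (a * b) c, (hc _).eq]
      group
  induction n with
  | zero => simp
  | succ n ih =>
    rw [pow_succ, ih, Nat.choose_succ_succ, Nat.choose_one_right, pow_add, mul_assoc _ (c ^ _),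
      ((hc _).pow_left _).eq, show a ^ n * b ^ n * (a * b * c ^ n.choose 2) = a ^ n * (b ^ n * a) * b * c ^ n.choose 2 by
        group, h1, pow_succ a, pow_succ b,
      show a ^ n * (a * b ^ n * c ^ n) * b = a ^ n * a * b ^ n * (c ^ n * b) by group, ((hc b).pow_left n).eq]
    group

variable [Finite G] {p : ℕ} [Fact p.Prime]

theorem mid {A M B : Subgroup G} {a : ℕ} (hA : Nat.card A = p ^ a) (hB : Nat.card B = p ^ (a + 1))
    (h1 : A ≤ M) (h2 : M ≤ B) : M = A ∨ M = B := by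
  have hp : p.Prime := Fact.out
  obtain ⟨j, hj, e⟩ := (Nat.dvd_prime_pow hp).1 (hB ▸ card_dvd_of_le h2)
  have h3 : p ^ a ∣ p ^ j := by rw [← hA, ← e]; exact card_dvd_of_le h1
  have h4 := (Nat.pow_dvd_pow_iff_le_right hp.one_lt).1 h3
  rcases (by omega : j = a ∨ j = a + 1) with r | r
  · left
    exact (eq_of_le_of_card_ge h1 (by rw [e, hA, r])).symm
  · right
    exact eq_of_le_of_card_ge h2 (by rw [e, hB, r])

omit [Finite G] [Fact p.Prime] in
theorem cm {U : Subgroup G} (hU : IsElementaryAbelian p U) {a b : G} (ha : a ∈ U) (hb : b ∈ U) :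
    Commute a b := congrArg Subtype.val (hU.1.1.1 ⟨a, ha⟩ ⟨b, hb⟩)

omit [Fact p.Prime] in
theorem rk (hr : PRankLE p 2 G) {U : Subgroup G} (hU : IsElementaryAbelian p U) (cU : Nat.card U = p ^ 2)
    {y : G} (hy : y ^ p = 1) (h : ∀ u ∈ U, Commute u y) : y ∈ U := by
  have h1 : U = adj U y h := eq_of_le_of_card_ge (fun u hu => ⟨u, hu, 0, by simp⟩) (cU ▸ hr _ ⟨⟨by
      rintro ⟨_, u, hu, k, rfl⟩ ⟨_, v, hv, l, rfl⟩
      exact Subtype.ext (((cm hU hu hv).mul_right ((h u hu).zpow_right l)).mul_left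
        (((h v hv).zpow_right k).symm.mul_right (Commute.zpow_zpow_self y k l))).eq⟩⟩ (by
      rintro _ ⟨u, hu, k, rfl⟩
      rw [((h u hu).zpow_right k).mul_pow, hU.2 u hu, ← zpow_natCast, ← zpow_mul, mul_comm k, zpow_mul,
        zpow_natCast, hy, one_zpow, one_mul]))
  rw [h1]
  exact ⟨1, one_mem _, 1, by simp⟩

theorem rep {U : Subgroup G} (cU : Nat.card U = p ^ 2) {x u : G} (hx : orderOf x = p)
    (hz : ∀ g, Commute x g) (xU : x ∈ U) (hu : u ∈ U) (ux : u ∉ zpowers x) {w : G} (hw : w ∈ U) :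
    ∃ i m : ℤ, w = x ^ i * u ^ m := by
  have h : ∀ a ∈ zpowers x, Commute a u := by rintro _ ⟨i, rfl⟩; exact (hz u).zpow_left i
  rcases mid (A := zpowers x) (M := adj _ u h) (a := 1) (by rw [Nat.card_zpowers, hx, pow_one]) cU
    (fun a ha => ⟨a, ha, 0, by simp⟩) (by
      rintro _ ⟨a, ha, k, rfl⟩
      exact mul_mem (zpowers_le.2 xU ha) (zpow_mem hu k)) with e | e
  · exact absurd (e ▸ (⟨1, one_mem _, 1, by simp⟩ : u ∈ adj _ u h)) ux
  · obtain ⟨_, ⟨i, rfl⟩, m, rfl⟩ : w ∈ adj _ u h := e.symm ▸ hw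
    exact ⟨i, m, rfl⟩

theorem triv {U : Subgroup G} (hU : IsElementaryAbelian p U) (cU : Nat.card U = p ^ 2) {x u : G}
    (hx : orderOf x = p) (hz : ∀ g, Commute x g) (xU : x ∈ U) (hu : u ∈ U) (ux : u ∉ zpowers x) {g : G} {k : ℕ}
    (hg : g ^ p ^ k = 1) (hn : g ∈ normalizer (U : Set G)) : ∃ i : ℤ, g * u * g⁻¹ = x ^ i * u := by
  obtain ⟨i, m, e⟩ := rep cU hx hz xU hu ux ((mem_normalizer_iff.1 hn u).1 hu)
  have h1 : ∀ n : ℕ, ∃ j : ℤ, g ^ n * u * (g ^ n)⁻¹ = x ^ j * u ^ (m ^ n) := by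
    intro n
    induction n with
    | zero => exact ⟨0, by simp⟩
    | succ n ih =>
      obtain ⟨j, ih⟩ := ih
      refine ⟨j + i * m ^ n, ?_⟩
      rw [pow_succ' g, show g * g ^ n * u * (g * g ^ n)⁻¹ = g * (g ^ n * u * (g ^ n)⁻¹) * g⁻¹ by group, ih,
        ← mul_assoc, ← ((hz g).zpow_left j).eq, mul_assoc, mul_assoc, ← mul_assoc g, ← conj_zpow, e,
        ((hz _).zpow_left i).mul_zpow, ← zpow_mul, ← zpow_mul, ← mul_assoc, ← zpow_add, pow_succ' m]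
  obtain ⟨j, h2⟩ := h1 (p ^ k)
  have h3 : (p : ℤ) ∣ m ^ p ^ k - m := by
    rw [← ZMod.intCast_zmod_eq_zero_iff_dvd]
    push_cast
    rw [ZMod.pow_card_pow, sub_self]
  obtain ⟨t, ht⟩ := h3
  rw [hg, one_mul, inv_one, mul_one, sub_eq_iff_eq_add.1 ht, zpow_add, zpow_mul, zpow_natCast, hU.2 u hu, one_zpow,
    one_mul] at h2
  refine ⟨i - j, ?_⟩
  rw [e]
  nth_rewrite 2 [h2]
  group

end PSa

open PSa in
theorem sa {G : Type*} [Group G] [Finite G] {p : ℕ} [Fact p.Prime] (hp : p ≠ 2) (P : Sylow p G)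
    (hn : (P : Subgroup G).Normal) (hr : Cfsg.PRankLE p 2 G) {x : G} (hxP : x ∈ (P : Subgroup G))
    (hx : orderOf x = p) (hz : x ∈ center G) (hc : (P : Subgroup G) ≤ commutator G) (U V : Subgroup G)
    (hUP : U ≤ P) (hU : Cfsg.IsElementaryAbelian p U) (cU : Nat.card U = p ^ 2)
    (hVP : V ≤ P) (hV : Cfsg.IsElementaryAbelian p V) (cV : Nat.card V = p ^ 2)
    (nU : (P : Subgroup G) ≤ normalizer (U : Set G)) (nV : (P : Subgroup G) ≤ normalizer (V : Set G))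
    (hne : U ≠ V) :
    Cfsg.IsExtraspecial p ↥(P : Subgroup G) ∧ Nat.card (P : Subgroup G) = p ^ 3 ∧
      ∀ y ∈ (P : Subgroup G), y ^ p = 1 := by
  have pp : p.Prime := Fact.out
  have zc : ∀ g, Commute x g := fun g => (mem_center_iff.1 hz g).symm
  have xp : x ^ p = 1 := hx ▸ pow_orderOf_eq_one x
  have xU : x ∈ U := rk hr hU cU xp fun u _ => (zc u).symm
  have xV : x ∈ V := rk hr hV cV xp fun u _ => (zc u).symm
  have cx : Nat.card (zpowers x) = p ^ 1 := by rw [Nat.card_zpowers, hx, pow_one]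
  have zx : ∀ a ∈ zpowers x, ∀ g, Commute a g := by rintro _ ⟨i, rfl⟩ g; exact (zc g).zpow_left i
  have UV : U ⊓ V = zpowers x := (mid cx cU (le_inf (zpowers_le.2 xU) (zpowers_le.2 xV)) inf_le_left).resolve_right
    fun e => hne (eq_of_le_of_card_ge (e ▸ inf_le_right) (by rw [cU, cV]))
  have cmm : ∀ u ∈ U, ∀ v ∈ V, u * v * u⁻¹ * v⁻¹ ∈ zpowers x := fun u hu v hv => by
    rw [← UV, mem_inf]
    refine ⟨?_, V.mul_mem ((mem_normalizer_iff.1 (nV (hUP hu)) _).1 hv) (V.inv_mem hv)⟩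
    rw [mul_assoc, mul_assoc, ← mul_assoc v]
    exact U.mul_mem hu ((mem_normalizer_iff.1 (nU (hVP hv)) _).1 (U.inv_mem hu))
  obtain ⟨u, hu, v, hv, huv⟩ : ∃ u ∈ U, ∃ v ∈ V, ¬ Commute u v := by
    by_contra h
    push Not at h
    exact hne (eq_of_le_of_card_ge (fun v hv => rk hr hU cU (hV.2 v hv) fun u hu => h u hu v hv)
      (by rw [cU, cV])).symm
  have ux : u ∉ zpowers x := fun e => huv (zx u e v)
  have vx : v ∉ zpowers x := fun e => huv (zx v e u).symm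
  obtain ⟨c, hcd⟩ : ∃ c, c = u * v * u⁻¹ * v⁻¹ := ⟨_, rfl⟩
  have cx' : c ∈ zpowers x := hcd ▸ cmm u hu v hv
  have cc := zx c cx'
  have xc : zpowers c = zpowers x := by
    refine (mid (a := 0) (A := ⊥) (by simp) cx bot_le (zpowers_le.2 cx')).resolve_left fun e => huv ?_
    rw [zpowers_eq_bot, hcd] at e
    exact commutatorElement_eq_one_iff_commute.1 e
  have e1 : u * v * u⁻¹ = c * v := by rw [hcd]; group
  have e2 : v⁻¹ * u * v = c * u := by
    rw [show v⁻¹ * u * v = v⁻¹ * (u * v * u⁻¹) * u by group, e1, ← mul_assoc, ← (cc _).eq]; group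
  have e3 : ∀ b : ℤ, u ^ b * v * (u ^ b)⁻¹ = c ^ b * v := fun b => by
    have : v⁻¹ * u ^ b * v = c ^ b * u ^ b := by
      rw [← (cc u).mul_zpow, ← e2]
      simpa using (conj_zpow (i := b) (a := v⁻¹) (b := u)).symm
    rw [show u ^ b * v * (u ^ b)⁻¹ = v * (v⁻¹ * u ^ b * v) * (u ^ b)⁻¹ by group, this, ← mul_assoc,
      ← ((cc v).zpow_left b).eq]
    group
  have e4 : ∀ a : ℤ, (v ^ a)⁻¹ * u * v ^ a = c ^ a * u := fun a => by
    rw [show (v ^ a)⁻¹ * u * v ^ a = (v ^ a)⁻¹ * (u * v ^ a * u⁻¹) * u by group, ← conj_zpow, e1, (cc v).mul_zpow,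
      ← mul_assoc, ← ((cc _).zpow_left a).eq]
    group
  let D : Subgroup G := (P : Subgroup G) ⊓ centralizer {u, v}
  have mD : ∀ d, d ∈ D ↔ d ∈ (P : Subgroup G) ∧ Commute u d ∧ Commute v d := fun d => by
    simp only [D, mem_inf, mem_centralizer_iff, Set.mem_insert_iff, Set.mem_singleton_iff, forall_eq_or_imp,
      forall_eq]
    rfl
  have dU : ∀ d ∈ D, ∀ w ∈ U, Commute w d := fun d hd w hw => by
    obtain ⟨i, m, rfl⟩ := rep cU hx zc xU hu ux hw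
    exact ((zc d).zpow_left i).mul_left (((mD d).1 hd).2.1.zpow_left m)
  have dV : ∀ d ∈ D, ∀ w ∈ V, Commute w d := fun d hd w hw => by
    obtain ⟨i, m, rfl⟩ := rep cV hx zc xV hv vx hw
    exact ((zc d).zpow_left i).mul_left (((mD d).1 hd).2.2.zpow_left m)
  have d1 : ∀ d ∈ D, d ^ p = 1 → d ∈ zpowers x := fun d hd e =>
    UV ▸ ⟨rk hr hU cU e (dU d hd), rk hr hV cV e (dV d hd)⟩
  have dec : ∀ g ∈ (P : Subgroup G), ∃ a : ℤ, ∃ u' ∈ U, ∃ d ∈ D, g = v ^ a * u' * d := fun g hg => by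
    obtain ⟨k, hk⟩ := P.isPGroup' ⟨g, hg⟩
    have hk' : g ^ p ^ k = 1 := congrArg Subtype.val hk
    obtain ⟨i, hi⟩ := triv hU cU hx zc xU hu ux hk' (nU hg)
    obtain ⟨l, hl⟩ := triv hV cV hx zc xV hv vx hk' (nV hg)
    obtain ⟨a, ha⟩ : x ^ i ∈ zpowers c := xc ▸ zpow_mem_zpowers x i
    obtain ⟨b, hb⟩ : x ^ l ∈ zpowers c := xc ▸ zpow_mem_zpowers x l
    have ha' : c ^ a = x ^ i := ha
    have hb' : c ^ b = x ^ l := hb
    refine ⟨-a, u ^ b, zpow_mem hu b, (v ^ (-a) * u ^ b)⁻¹ * g, (mD _).2 ⟨mul_mem (inv_mem (mul_mem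
      (hVP (zpow_mem hv _)) (hUP (zpow_mem hu _)))) hg, ?_, ?_⟩, by group⟩
    · rw [← ha', ← e4] at hi
      show u * _ = _ * u
      rw [show (v ^ (-a) * u ^ b)⁻¹ * g * u = (v ^ (-a) * u ^ b)⁻¹ * (g * u * g⁻¹) * g by group, hi]
      group
    · rw [← hb'] at hl
      show v * _ = _ * v
      rw [show (v ^ (-a) * u ^ b)⁻¹ * g * v = (u ^ b)⁻¹ * (v ^ a * (g * v * g⁻¹) * (v ^ a)⁻¹) * v ^ a * g by group, hl,
        ← mul_assoc (v ^ a), ← ((cc _).zpow_left b).eq,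
        show c ^ b * v ^ a * v * (v ^ a)⁻¹ = c ^ b * v by group, ← e3]
      group
  have dc : IsCyclic D := by
    refine (H1.isCyclic_or_quaternion (p := p) (P.isPGroup'.to_inf_left) fun a b ha hb => ?_).resolve_right
      fun h => hp h.1
    have a1 := d1 a.1 a.2 (congrArg Subtype.val (show a ^ p = 1 from orderOf_dvd_iff_pow_eq_one.1 ha.dvd))
    have a2 : zpowers a.1 = zpowers x := eq_of_le_of_card_ge (zpowers_le.2 a1) (by
      rw [Nat.card_zpowers, Nat.card_zpowers, Subgroup.orderOf_coe, ha, hx])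
    obtain ⟨i, hi⟩ := a2 ▸ d1 b.1 b.2 (congrArg Subtype.val hb)
    exact ⟨i, Subtype.ext hi⟩
  have dd : ∀ d ∈ D, ∀ d' ∈ D, Commute d d' := fun d hd d' hd' =>
    congrArg Subtype.val (dc.isMulCommutative.1.1 ⟨d, hd⟩ ⟨d', hd'⟩)
  have pw : ∀ v' ∈ V, ∀ u' ∈ U, ∀ d ∈ D, (v' * u' * d) ^ p = d ^ p := fun v' hv' u' hu' d hd => by
    have m := cmm _ (inv_mem hu') _ (inv_mem hv')
    obtain ⟨t, ht⟩ : p ∣ p.choose 2 := pp.dvd_choose_self (by norm_num) (lt_of_le_of_ne pp.two_le hp.symm)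
    rw [((dV d hd _ hv').mul_left (dU d hd _ hu')).mul_pow, mp (zx _ m) (by group), hV.2 _ hv', hU.2 _ hu', ht,
      pow_mul, hU.2 _ (zpowers_le.2 xU m)]
    simp
  have hom : ∀ k : ℕ, ∀ y ∈ (P : Subgroup G), ∀ y' ∈ (P : Subgroup G),
      (y * y') ^ p ^ (k + 1) = y ^ p ^ (k + 1) * y' ^ p ^ (k + 1) := fun k y hy y' hy' => by
    obtain ⟨a, u1, h1, d, hd, rfl⟩ := dec y hy
    obtain ⟨b, u2, h2, d', hd', rfl⟩ := dec y' hy'
    have f : v ^ a * u1 * d * (v ^ b * u2 * d') = v ^ (a + b) * ((v ^ b)⁻¹ * u1 * (v ^ b)⁻¹⁻¹ * u2) * (d * d') := by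
      rw [show v ^ a * u1 * d * (v ^ b * u2 * d') = v ^ a * u1 * (d * (v ^ b * u2)) * d' by group,
        ← ((dV d hd _ (zpow_mem hv b)).mul_left (dU d hd _ h2)).eq]
      group
    rw [f, pow_succ', pow_mul, pow_mul, pow_mul, pw _ (zpow_mem hv _) _ (mul_mem ((mem_normalizer_iff.1
      (nU (hVP (inv_mem (zpow_mem hv b)))) _).1 h1) h2) _ (mul_mem hd hd'), pw _ (zpow_mem hv _) _ h1 _ hd,
      pw _ (zpow_mem hv _) _ h2 _ hd', (dd d hd d' hd').mul_pow, ((dd d hd d' hd').pow_pow p p).mul_pow]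
  have step : ∀ k : ℕ, (∀ y ∈ (P : Subgroup G), y ^ p ^ (k + 2) = 1) → ∀ y ∈ (P : Subgroup G), y ^ p ^ (k + 1) = 1 := by
    intro k hk y hy
    have zen : ∀ y ∈ (P : Subgroup G), y ^ p ^ (k + 1) ∈ zpowers x := fun y hy => by
      refine d1 _ ?_ (by rw [← pow_mul, ← pow_succ, hk y hy])
      obtain ⟨a, u1, h1, d, hd, rfl⟩ := dec y hy
      rw [pow_succ', pow_mul, pw _ (zpow_mem hv _) _ h1 _ hd]
      exact pow_mem (pow_mem hd _) _
    let K : Subgroup G :=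
      { carrier := {y | y ∈ (P : Subgroup G) ∧ y ^ p ^ (k + 1) = 1}
        one_mem' := ⟨one_mem _, one_pow _⟩
        mul_mem' := fun {a b} ha hb => ⟨mul_mem ha.1 hb.1, by rw [hom k a ha.1 b hb.1, ha.2, hb.2, one_mul]⟩
        inv_mem' := fun {a} ha => ⟨inv_mem ha.1, by rw [inv_pow, ha.2, inv_one]⟩ }
    have h1 : (P : Subgroup G).focalSubgroup ≤ K := by
      refine (closure_le _).2 ?_
      rintro _ ⟨hg, a, ha, g, rfl⟩
      refine ⟨hg, ?_⟩
      rw [commutatorElement_def, show a * g * a⁻¹ * g⁻¹ = a * (g * a⁻¹ * g⁻¹) by group,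
        hom k a ha _ (hn.conj_mem _ (inv_mem ha) g), conj_pow, inv_pow, ← (zx _ (inv_mem (zen a ha)) g).eq]
      group
    exact (h1 (commutator_inf_eq_focalSubgroup P ▸ ⟨hc hy, hy⟩)).2
  have ex : ∀ y ∈ (P : Subgroup G), y ^ p = 1 := by
    obtain ⟨n, hn'⟩ := P.isPGroup'.exists_card_eq
    have h0 : ∀ k : ℕ, (∀ y ∈ (P : Subgroup G), y ^ p ^ (k + 1) = 1) → ∀ y ∈ (P : Subgroup G), y ^ p = 1 := by
      intro k
      induction k with
      | zero => intro h; simpa using h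
      | succ k ih => exact fun h => ih (step k h)
    refine h0 n fun y hy => ?_
    have : y ^ p ^ n = 1 := congrArg Subtype.val (hn' ▸ pow_card_eq_one' (x := (⟨y, hy⟩ : (P : Subgroup G))))
    rw [pow_succ, pow_mul, this, one_pow]
  have c3 : Nat.card (P : Subgroup G) = p ^ 3 := by
    obtain ⟨n, hn'⟩ := P.isPGroup'.exists_card_eq
    have h1 : Nat.card (P : Subgroup G) ≤ Nat.card (zpowers v × U) := by
      refine Nat.card_le_card_of_surjective (fun q : zpowers v × U => (⟨q.1 * q.2, mul_mem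
        (hVP (zpowers_le.2 hv q.1.2)) (hUP q.2.2)⟩ : (P : Subgroup G))) fun g => ?_
      obtain ⟨a, u1, h1, d, hd, e⟩ := dec g g.2
      exact ⟨(⟨_, zpow_mem_zpowers v a⟩, ⟨u1 * d, mul_mem h1 (zpowers_le.2 xU (d1 d hd (ex d hd.1)))⟩),
        Subtype.ext (by rw [e, mul_assoc])⟩
    have v1 : orderOf v = p := orderOf_eq_prime (hV.2 v hv) fun e => vx (e ▸ one_mem _)
    rw [Nat.card_prod, Nat.card_zpowers, v1, cU, hn', ← pow_succ', Nat.pow_le_pow_iff_right pp.one_lt] at h1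
    have h2 : ¬ n ≤ 2 := fun h => huv (cm hU hu (eq_of_le_of_card_ge hUP (by
      rw [cU, hn']; exact Nat.pow_le_pow_right pp.pos h) ▸ hVP hv))
    rw [hn', show n = 3 by omega]
  exact ⟨H26.isExtraspecial_of_card_cube c3 fun h => huv
    (congrArg Subtype.val (h.1.1 ⟨u, hUP hu⟩ ⟨v, hVP hv⟩)), c3, ex⟩

end Cfsg.Agent.IS
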