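import Cfsg.Agent.S1447
import Cfsg.Agent.H1.HallHigman
import Cfsg.Agent.H2.Basic
import Cfsg.Agent.H3.PGroup1
import Cfsg.Prelude.Def_CaseTheorems
import Cfsg.Prelude.Def_Transfer

/-! A normal Sylow subgroup of rank two with a central element: the centraliser of a normal four-type subgroup is homocyclic. -/

set_option autoImplicit false

namespace Cfsg.Agent.IS

open Subgroup
open scoped commutatorElement

namespace Sb

variable {G : Type*} [Group G]

/-- `n`-torsion of an abelian subgroup -/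
def Om (Z : Subgroup G) (hZ : ∀ a ∈ Z, ∀ b ∈ Z, a * b = b * a) (n : ℕ) : Subgroup G where
  carrier := {g | g ∈ Z ∧ g ^ n = 1}
  one_mem' := ⟨one_mem _, one_pow _⟩
  mul_mem' := fun {a b} ha hb => ⟨mul_mem ha.1 hb.1, by rw [Commute.mul_pow (hZ a ha.1 b hb.1), ha.2, hb.2, mul_one]⟩
  inv_mem' := fun {a} ha => ⟨inv_mem ha.1, by rw [inv_pow, ha.2, inv_one]⟩

/-- `n`-th powers of an abelian subgroup -/
def Pw (Z : Subgroup G) (hZ : ∀ a ∈ Z, ∀ b ∈ Z, a * b = b * a) (n : ℕ) : Subgroup G where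
  carrier := {g | ∃ h ∈ Z, h ^ n = g}
  one_mem' := ⟨1, one_mem _, one_pow _⟩
  mul_mem' := by
    rintro _ _ ⟨a, ha, rfl⟩ ⟨b, hb, rfl⟩
    exact ⟨a * b, mul_mem ha hb, Commute.mul_pow (hZ a ha b hb) n⟩
  inv_mem' := by
    rintro _ ⟨a, ha, rfl⟩
    exact ⟨a⁻¹, inv_mem ha, inv_pow _ _⟩

theorem nz {x : G} (hz : x ∈ center G) : (zpowers x).Normal :=
  ⟨fun t ht g => by rw [mem_center_iff.1 (zpowers_le.2 hz ht) g, mul_inv_cancel_right]; exact ht⟩

variable [Finite G] {p : ℕ} [hp' : Fact p.Prime]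

theorem rank {U : Subgroup G} (hr : Cfsg.PRankLE p 2 G) (hU : Cfsg.IsElementaryAbelian p U) (cU : Nat.card U = p ^ 2)
    {z : G} (hz : z ∈ centralizer (U : Set G)) (zp : z ^ p = 1) : z ∈ U := by
  by_contra hn
  have hc := H3.card_sup_zpowers (p := p) (centralizer_le_normalizer _ hz) hn (zp ▸ one_mem _)
  have := hU.1
  have c1 : zpowers z ≤ centralizer (U : Set G) := zpowers_le.2 hz
  have c2 : U ⊔ zpowers z ≤ centralizer ((U ⊔ zpowers z : Subgroup G) : Set G) :=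
    sup_le (le_centralizer_iff.1 (sup_le U.le_centralizer c1))
      (le_centralizer_iff.1 (sup_le (le_centralizer_iff.1 c1) (zpowers z).le_centralizer))
  have c3 : U ⊔ zpowers z ≤ Om _ (fun a ha b hb => (c2 hb a ha)) p :=
    sup_le (fun u hu => ⟨mem_sup_left hu, hU.2 u hu⟩) (zpowers_le.2 ⟨mem_sup_right (mem_zpowers z), zp⟩)
  have := hr _ (le_centralizer_iff_isMulCommutative.1 c2) fun a ha => (c3 ha).2
  rw [hc, cU] at this
  have h1 := hp'.out.one_lt
  nlinarith [pow_pos hp'.out.pos 2]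

theorem gen {U : Subgroup G} (hU : Cfsg.IsElementaryAbelian p U) (cU : Nat.card U = p ^ 2) {x z : G} (hx : orderOf x = p)
    (hz : x ∈ center G) (xU : x ∈ U) (zU : z ∈ U) (zx : z ∉ zpowers x) : U ≤ zpowers x ⊔ zpowers z := by
  have : (zpowers x).Normal := nz hz
  have hc := H3.card_sup_zpowers (p := p) (N := zpowers x) (x := z) (by rw [normalizer_eq_top]; trivial) zx
    (hU.2 z zU ▸ one_mem _)
  refine (eq_of_le_of_card_ge (sup_le (zpowers_le.2 xU) (zpowers_le.2 zU)) ?_).ge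
  rw [hc, cU, Nat.card_zpowers, hx, pow_two]

theorem pa (P : Sylow p G) (hn : (P : Subgroup G).Normal) {A : Subgroup G} (h : IsComplement' (P : Subgroup G) A)
    (hc : (P : Subgroup G) ≤ commutator G) : ⁅(P : Subgroup G), A⁆ = P := by
  refine le_antisymm (commutator_le_left _ _) ?_
  have nK : ⁅(P : Subgroup G), A⁆.Normal := normalizer_eq_top_iff.1 (top_le_iff.1 (h.sup_eq_top ▸
    sup_le (normalizer_commutator_ge_left _ _) (normalizer_commutator_ge_right _ _)))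
  have h1 : (P : Subgroup G) ≤ ⁅(P : Subgroup G), (P : Subgroup G)⁆ ⊔ ⁅(P : Subgroup G), A⁆ := by
    refine (le_inf hc le_rfl).trans ((commutator_inf_eq_focalSubgroup P).le.trans ?_)
    rw [focalSubgroup_def, closure_le]
    rintro _ ⟨-, y, hy, u, rfl⟩
    obtain ⟨⟨s, a⟩, rfl⟩ := h.surjective u
    have e : ⁅y, (s : G) * a⁆ = ⁅y, (s : G)⁆ * (s * ⁅y, (a : G)⁆ * (s : G)⁻¹) := by
      simp only [commutatorElement_def]; group
    change ⁅y, (s : G) * a⁆ ∈ _
    rw [e]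
    exact mul_mem (mem_sup_left (commutator_mem_commutator hy s.2))
      (mem_sup_right (nK.conj_mem _ (commutator_mem_commutator hy a.2) _))
  have h2 := map_mono (f := QuotientGroup.mk' ⁅(P : Subgroup G), A⁆) h1
  rw [Subgroup.map_sup, map_commutator, QuotientGroup.map_mk'_self, sup_bot_eq] at h2
  have h3 := (P.isPGroup'.map (QuotientGroup.mk' ⁅(P : Subgroup G), A⁆)).isNilpotent
  have h4 : (P : Subgroup G).map (QuotientGroup.mk' ⁅(P : Subgroup G), A⁆) = ⊥ := by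
    by_contra h0
    generalize (P : Subgroup G).map (QuotientGroup.mk' ⁅(P : Subgroup G), A⁆) = R at h2 h3 h0
    have := (nontrivial_iff_ne_bot R).2 h0
    refine (Group.IsSolvable.commutator_lt_top_of_nontrivial R).ne (top_le_iff.1 fun g _ => ?_)
    rw [← map_subtype_commutator] at h2
    obtain ⟨k, hk, e⟩ := h2 g.2
    exact (Subtype.ext e : k = g) ▸ hk
  rwa [Subgroup.map_eq_bot_iff, QuotientGroup.ker_mk'] at h4

omit [Finite G] in
theorem cyc {a b : G} {d : ℕ} (ha : orderOf a = p ^ (d + 1)) (hb : orderOf b = p ^ (d + 1))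
    (h : b ^ p ^ d ∉ zpowers (a ^ p ^ d)) : zpowers a ⊓ zpowers b = ⊥ := by
  have hp := hp'.out
  have fa : IsOfFinOrder a := orderOf_pos_iff.1 (ha ▸ pow_pos hp.pos _)
  have fb : IsOfFinOrder b := orderOf_pos_iff.1 (hb ▸ pow_pos hp.pos _)
  refine (eq_bot_iff_forall _).2 fun y hy => ?_
  by_contra y1
  obtain ⟨n, rfl⟩ := (fb.mem_powers_iff_mem_zpowers.2 hy.2)
  have n0 : n ≠ 0 := by rintro rfl; simp at y1
  obtain ⟨k, m, hm, rfl⟩ := Nat.exists_eq_pow_mul_and_not_dvd n0 p hp.ne_one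
  have hk : k ≤ d := by
    by_contra hk
    exact y1 (orderOf_dvd_iff_pow_eq_one.1 (hb ▸ (pow_dvd_pow p (by omega)).mul_right m))
  obtain ⟨j, rfl⟩ := Nat.exists_eq_add_of_le hk
  obtain ⟨i, hi⟩ := fa.mem_powers_iff_mem_zpowers.2 (pow_mem hy.1 (p ^ j))
  have e : a ^ i = (b ^ p ^ (k + j)) ^ m := by
    refine hi.trans ?_
    simp only [← pow_mul]
    congr 1; ring
  have o : orderOf (b ^ p ^ (k + j)) = p := by
    rw [orderOf_pow_of_dvd (pow_pos hp.pos _).ne' (hb ▸ pow_dvd_pow p (by omega)), hb, pow_succ,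
      Nat.mul_div_cancel_left _ (pow_pos hp.pos _)]
  have e2 : a ^ (i * p) = 1 := by
    rw [pow_mul, e, ← pow_mul, mul_comm, pow_mul]
    conv_lhs => rw [← o]
    rw [o, show (b ^ p ^ (k + j)) ^ p = 1 by rw [← pow_mul, ← pow_succ, ← hb, pow_orderOf_eq_one], one_pow]
  obtain ⟨t, ht⟩ : p ^ (k + j) ∣ i := by
    have := orderOf_dvd_of_pow_eq_one e2
    rwa [ha, pow_succ, Nat.mul_dvd_mul_iff_right hp.pos] at this
  obtain ⟨r, hr⟩ := exists_pow_eq_self_of_coprime (x := b ^ p ^ (k + j)) (n := m)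
    (by rw [o]; exact ((Nat.Prime.coprime_iff_not_dvd hp).2 hm).symm)
  refine h ?_
  rw [← hr, ← e, ht, pow_mul]
  exact pow_mem (pow_mem (mem_zpowers _) _) _

end Sb

open Sb

theorem sb {G : Type*} [Group G] [Finite G] {p : ℕ} [hp' : Fact p.Prime] (hp : p ≠ 2) (P : Sylow p G)
    (hn : (P : Subgroup G).Normal) (hr : Cfsg.PRankLE p 2 G) {x : G} (hxP : x ∈ (P : Subgroup G)) (hx : orderOf x = p)
    (hz : x ∈ center G) (hc : (P : Subgroup G) ≤ commutator G) (U : Subgroup G) (hUP : U ≤ P)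
    (hU : Cfsg.IsElementaryAbelian p U) (cU : Nat.card U = p ^ 2) (nU : U.Normal)
    (hm : Cfsg.IsMetacyclic ↥((P : Subgroup G) ⊓ centralizer (U : Set G))) :
    ∃ (e : ℕ) (a b : G), 1 ≤ e ∧ orderOf a = p ^ e ∧ orderOf b = p ^ e ∧ a * b = b * a ∧ zpowers a ⊓ zpowers b = ⊥ ∧
      zpowers a ⊔ zpowers b = (P : Subgroup G) ⊓ centralizer (U : Set G) ∧ Nat.card (P : Subgroup G) = p ^ (2 * e + 1) ∧
      ¬ (P : Subgroup G) ≤ centralizer (U : Set G) := by
  classical
  have pp := hp'.out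
  have xc : ∀ g, g * x = x * g := mem_center_iff.1 hz
  have xp : x ^ p = 1 := orderOf_dvd_iff_pow_eq_one.1 hx.dvd
  have x1 : x ≠ 1 := fun e => pp.one_lt.ne (by rw [← hx, e, orderOf_one])
  have xU : x ∈ U := rank hr hU cU (fun g _ => xc g) xp
  have nX : (zpowers x).Normal := nz hz
  have Xc : ∀ t ∈ zpowers x, ∀ g, g * t = t * g := fun t ht => mem_center_iff.1 (zpowers_le.2 hz ht)
  have Xg : ∀ t ∈ zpowers x, t ≠ 1 → x ∈ zpowers t := fun t ht t1 => by
    have : zpowers t = zpowers x := eq_of_le_of_card_ge (zpowers_le.2 ht) (by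
      rw [Nat.card_zpowers, Nat.card_zpowers, hx]
      have := orderOf_dvd_of_mem_zpowers ht
      rw [hx] at this
      exact ((Nat.dvd_prime pp).1 this).elim (fun e => (t1 (orderOf_eq_one_iff.1 e)).elim) fun e => e.ge)
    exact this ▸ mem_zpowers x
  obtain ⟨A, hA⟩ := exists_right_complement'_of_coprime (N := (P : Subgroup G)) P.card_coprime_index
  have PA := pa P hn hA hc
  have cop' : (Nat.card A).Coprime (Nat.card (P : Subgroup G)) := by
    rw [← hA.symm.index_eq_card]; exact P.card_coprime_index.symm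
  have cop : (Nat.card A).Coprime p := cop'.coprime_dvd_right (hx.symm.dvd.trans (orderOf_dvd_natCard _ hxP))
  have nC : ((P : Subgroup G) ⊓ centralizer (U : Set G)).Normal := inferInstance
  generalize hC : (P : Subgroup G) ⊓ centralizer (U : Set G) = C at hm nC
  have mC : ∀ {g}, g ∈ C ↔ g ∈ (P : Subgroup G) ∧ g ∈ centralizer (U : Set G) := fun {g} => by rw [← hC]; rfl
  have CP : C ≤ P := fun g hg => (mC.1 hg).1
  have := hU.1
  have UC : U ≤ C := fun g hg => mC.2 ⟨hUP hg, U.le_centralizer hg⟩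
  have pC : IsPGroup p C := P.isPGroup'.to_le CP
  obtain ⟨-, s2, s3, s4⟩ := S1447.result p hp C A pC hm (by rw [normalizer_eq_top]; exact le_top) cop
  have xF : ∀ t ∈ zpowers x, t ∈ C ⊓ centralizer (A : Set G) := fun t ht =>
    ⟨UC (zpowers_le.2 xU ht), fun g _ => Xc t ht g⟩
  have nP : ¬ (P : Subgroup G) ≤ centralizer (U : Set G) := fun h => by
    have e : C = P := by rw [← hC, inf_eq_left.2 h]
    refine x1 (mem_bot.1 (s3 ▸ (⟨?_, xF x (mem_zpowers x)⟩ : x ∈ ⁅C, A⁆ ⊓ (C ⊓ centralizer (A : Set G)))))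
    rw [e, PA]; exact hxP
  have cz : ∀ z ∈ U, z ∉ zpowers x → ∀ g, g * z = z * g → g ∈ centralizer (U : Set G) := fun z zU zx g hg u hu =>
    mem_centralizer_singleton_iff.1 ((gen hU cU hx hz xU zU zx).trans (sup_le
      (zpowers_le.2 (mem_centralizer_singleton_iff.2 (xc g).symm)) (zpowers_le.2 (mem_centralizer_singleton_iff.2 hg.symm))) hu)
  have cm : ∀ y ∈ (P : Subgroup G), ∀ u ∈ U, y * u * y⁻¹ * u⁻¹ ∈ zpowers x := by
    have h0 : U.map (QuotientGroup.mk' (zpowers x)) ≠ ⊥ := fun e => by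
      rw [Subgroup.map_eq_bot_iff, QuotientGroup.ker_mk'] at e
      have := card_le_of_le e
      rw [cU, Nat.card_zpowers, hx] at this
      nlinarith [pp.one_lt]
    have nq : (U.map (QuotientGroup.mk' (zpowers x))).Normal := nU.map _ (QuotientGroup.mk'_surjective _)
    obtain ⟨⟨_, ⟨u, uU, rfl⟩, h1⟩, h2⟩ := ne_bot_iff_exists_ne_one.1 (H2.inf_centralizer_ne_bot_of_isPGroup
      ((P.isPGroup'.to_le hUP).map _) (P.isPGroup'.map (QuotientGroup.mk' (zpowers x)))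
      (by rw [normalizer_eq_top]; exact le_top) h0)
    have ux : u ∉ zpowers x := fun e => h2 (Subtype.ext ((QuotientGroup.eq_one_iff u).2 e))
    intro y hy w hw
    have k : U ≤ (centralizer {QuotientGroup.mk' (zpowers x) y}).comap (QuotientGroup.mk' (zpowers x)) :=
      (gen hU cU hx hz xU uU ux).trans (sup_le (zpowers_le.2 (by
        rw [mem_comap, show QuotientGroup.mk' (zpowers x) x = 1 from (QuotientGroup.eq_one_iff x).2 (mem_zpowers x)]
        exact one_mem _))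
        (zpowers_le.2 (mem_centralizer_singleton_iff.2 (h1 _ ⟨y, hy, rfl⟩).symm)))
    have k2 := mem_centralizer_singleton_iff.1 (k hw)
    rw [← QuotientGroup.eq_one_iff (N := zpowers x), ← QuotientGroup.mk'_apply]
    simp only [map_mul, map_inv]
    rw [← k2]; group
  obtain ⟨s, sP, sC⟩ := SetLike.not_le_iff_exists.1 nP
  obtain ⟨u, uU, su⟩ : ∃ u ∈ U, s * u * s⁻¹ * u⁻¹ ≠ 1 := by
    by_contra! h
    exact sC fun u hu => (mul_inv_eq_iff_eq_mul.1 (mul_inv_eq_one.1 (h u hu))).symm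
  have ux : u ∉ zpowers x := fun e => su (by rw [Xc u e s]; group)
  have pw : ∀ n : ℕ, s ^ n * u = (s * u * s⁻¹ * u⁻¹) ^ n * u * s ^ n := fun n => by
    induction n with
    | zero => simp
    | succ n ih =>
      have c := Xc _ (pow_mem (cm s sP u uU) n) s
      rw [pow_succ', mul_assoc, ih, ← mul_assoc, ← mul_assoc, c, pow_succ (s * u * s⁻¹ * u⁻¹)]
      group
  have dec : ∀ y ∈ (P : Subgroup G), ∃ n : ℕ, ∃ c ∈ C, y = s ^ n * c := fun y hy => by
    obtain ⟨n, hn'⟩ := (mem_powers_iff_mem_zpowers.2 (zpowers_le.2 (Xg _ (cm s sP u uU) su) (cm y hy u uU)))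
    refine ⟨n, (s ^ n)⁻¹ * y, mC.2 ⟨mul_mem (inv_mem (pow_mem sP n)) hy, cz u uU ux _ ?_⟩, by group⟩
    have e := pw n
    rw [show (s * u * s⁻¹ * u⁻¹) ^ n = y * u * y⁻¹ * u⁻¹ from hn'] at e
    calc (s ^ n)⁻¹ * y * u = (s ^ n)⁻¹ * (y * u * y⁻¹ * u⁻¹ * u * s ^ n) * ((s ^ n)⁻¹ * y) := by group
      _ = _ := by rw [← e]; group
  have cP : Nat.card (P : Subgroup G) = p * Nat.card C := by
    rw [← H3.card_sup_zpowers (p := p) (N := C) (x := s) (by rw [normalizer_eq_top]; trivial) (fun h => sC (mC.1 h).2)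
      (mC.2 ⟨pow_mem sP _, cz u uU ux _ (by
        obtain ⟨k, hk⟩ := cm s sP u uU
        rw [pw p, ← hk]
        change (x ^ k) ^ p * u * s ^ p = _
        rw [← zpow_natCast, ← zpow_mul, mul_comm k, zpow_mul, zpow_natCast, xp, one_zpow, one_mul])⟩)]
    congr 2
    refine le_antisymm (fun y hy => ?_) (sup_le CP (zpowers_le.2 sP))
    obtain ⟨n, c, hc', rfl⟩ := dec y hy
    exact mul_mem (mem_sup_right (pow_mem (mem_zpowers s) n)) (mem_sup_left hc')
  have nA : ¬ A ≤ centralizer (C : Set G) := fun h => by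
    refine nP (PA ▸ commutator_le.2 fun y hy a ha => cz u uU ux _ ?_)
    have e1 : u * a = a * u := h ha u (UC uU)
    have e2 := Xc _ (cm y⁻¹ (inv_mem hy) u uU) a
    rw [commutatorElement_def]
    have e3 : a⁻¹ * u = u * a⁻¹ := by rw [inv_mul_eq_iff_eq_mul, ← mul_assoc, ← e1]; group
    calc y * a * y⁻¹ * a⁻¹ * u = y * (a * (y⁻¹ * u * y⁻¹⁻¹ * u⁻¹)) * u * y⁻¹ * a⁻¹ := by rw [mul_assoc _ a⁻¹, e3]; group
      _ = y * (y⁻¹ * u * y⁻¹⁻¹ * u⁻¹) * (a * u) * y⁻¹ * a⁻¹ := by rw [e2]; group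
      _ = _ := by rw [← e1]; group
  have ab : IsMulCommutative C := by
    by_contra hab
    obtain ⟨-, -, -, -, s5⟩ := s4 hab nA
    have h0 : ⁅C, C⁆ ≠ ⊥ := fun e => hab (le_centralizer_iff_isMulCommutative.1 (commutator_eq_bot_iff_le_centralizer.1 e))
    have h1 := H2.inf_centralizer_ne_bot_of_isPGroup (pC.to_le (commutator_le_left C C)) P.isPGroup'
      (by rw [normalizer_eq_top]; exact le_top) h0
    have h2 : IsPGroup p ↥(⁅C, C⁆ ⊓ centralizer ((P : Subgroup G) : Set G)) := pC.to_le (inf_le_left.trans (commutator_le_left C C))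
    obtain ⟨k, hk⟩ := h2.exists_card_eq
    obtain ⟨⟨z, z1, z2⟩, hz'⟩ := exists_prime_orderOf_dvd_card' (G := ↥(⁅C, C⁆ ⊓ centralizer ((P : Subgroup G) : Set G))) p (by
      rw [hk]
      refine dvd_pow_self p ?_
      rintro rfl
      exact h1 (card_eq_one.1 (by simpa using hk)))
    replace hz' : orderOf z = p := (Subgroup.orderOf_coe _).trans hz'
    have zU : z ∈ U := rank hr hU cU (fun g hg => z2 g (hUP hg)) (orderOf_dvd_iff_pow_eq_one.1 hz'.dvd)
    have zx : z ∈ zpowers x := by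
      by_contra zx
      exact sC (cz z zU zx s (z2 s sP))
    have : z = 1 := mem_bot.1 (s3 ▸ (⟨s5 z1, xF z zx⟩ : z ∈ ⁅C, A⁆ ⊓ (C ⊓ centralizer (A : Set G))))
    exact pp.one_lt.ne (by rw [← hz', this, orderOf_one])
  have cc : ∀ a ∈ C, ∀ b ∈ C, a * b = b * a := fun a ha b hb => C.le_centralizer hb a ha
  have ex : ∃ e, ∀ c ∈ C, c ^ p ^ e = 1 := by
    obtain ⟨k, hk⟩ := pC.exists_card_eq
    exact ⟨k, fun c hc' => orderOf_dvd_iff_pow_eq_one.1 (hk ▸ orderOf_dvd_natCard _ hc')⟩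
  obtain ⟨d, hd⟩ : ∃ d, Nat.find ex = d + 1 := Nat.exists_eq_succ_of_ne_zero fun e => x1 (by
    have := Nat.find_spec ex x (UC xU)
    rwa [e, pow_zero, pow_one] at this)
  have top : ∀ c ∈ C, c ^ p ^ (d + 1) = 1 := hd ▸ Nat.find_spec ex
  have low : ¬ ∀ c ∈ C, c ^ p ^ d = 1 := Nat.find_min ex (by omega)
  have inU : ∀ k, ∀ c ∈ C, c ^ p ^ (k + 1) = 1 → c ^ p ^ k ∈ U := fun k c hc' e =>
    rank hr hU cU (mC.1 (pow_mem hc' _)).2 (by rw [← pow_mul, ← pow_succ, e])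
  obtain ⟨b, bC, bx⟩ : ∃ b ∈ C, b ^ p ^ d ∉ zpowers x := by
    by_contra! h
    have k1 : ∀ c ∈ C, ∀ g, ⁅c, g⁆ ∈ Om C cc (p ^ d) := fun c hc' g => by
      have m : g * c⁻¹ * g⁻¹ ∈ C := nC.conj_mem _ (inv_mem hc') g
      have e : ⁅c, g⁆ = c * (g * c⁻¹ * g⁻¹) := by rw [commutatorElement_def]; group
      refine ⟨e ▸ mul_mem hc' m, ?_⟩
      rw [e, Commute.mul_pow (cc _ hc' _ m), conj_pow, inv_pow, Xc _ (inv_mem (h c hc')) g]
      group
    have nK : (Om C cc (p ^ d)).Normal := ⟨fun c hc' g => ⟨nC.conj_mem _ hc'.1 g, by rw [conj_pow, hc'.2]; group⟩⟩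
    have k2 : ⁅(P : Subgroup G), (P : Subgroup G)⁆ ≤ Om C cc (p ^ d) := commutator_le.2 fun y hy y' hy' => by
      obtain ⟨n, c, hc1, rfl⟩ := dec y hy
      obtain ⟨n', c', hc2, rfl⟩ := dec y' hy'
      have q : ∀ c ∈ C, ∀ g, Commute (QuotientGroup.mk' (Om C cc (p ^ d)) c) (QuotientGroup.mk' (Om C cc (p ^ d)) g) :=
        fun c hc' g => by
          rw [← commutatorElement_eq_one_iff_commute, ← map_commutatorElement]
          exact (QuotientGroup.eq_one_iff _).2 (k1 c hc' g)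
      rw [← QuotientGroup.eq_one_iff (N := Om C cc (p ^ d)), ← QuotientGroup.mk'_apply, map_commutatorElement,
        commutatorElement_eq_one_iff_commute, map_mul]
      refine Commute.mul_left ?_ (q c hc1 _)
      rw [map_mul]
      exact Commute.mul_right (((Commute.refl s).pow_pow n n').map _) (q c' hc2 _).symm
    have k3 := H1.inf_centralizer_inf_commutator_le (A := A) (K := (P : Subgroup G))
      (by rw [normalizer_eq_top]; exact le_top) cop'
    rw [PA] at k3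
    have k4 : C ≤ Om C cc (p ^ d) := s2.ge.trans (sup_le (commutator_le.2 fun c hc' a _ => k1 c hc' a)
      fun f hf => k2 (k3 ⟨⟨CP hf.1, hf.2⟩, CP hf.1⟩))
    exact low fun c hc' => (k4 hc').2
  have bU := inU d b bC (top b bC)
  have aC : s * b * s⁻¹ * b⁻¹ ∈ C := mul_mem (nC.conj_mem _ bC s) (inv_mem bC)
  have ae : (s * b * s⁻¹ * b⁻¹) ^ p ^ d = s * b ^ p ^ d * s⁻¹ * (b ^ p ^ d)⁻¹ := by
    rw [Commute.mul_pow (cc _ (nC.conj_mem _ bC s) _ (inv_mem bC)), conj_pow, inv_pow]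
  have ax : (s * b * s⁻¹ * b⁻¹) ^ p ^ d ∈ zpowers x := ae ▸ cm s sP _ bU
  have a1 : (s * b * s⁻¹ * b⁻¹) ^ p ^ d ≠ 1 := fun e => sC (cz _ bU bx s (by
    rw [ae] at e
    rw [← mul_inv_eq_iff_eq_mul, mul_inv_eq_one.1 e]))
  generalize s * b * s⁻¹ * b⁻¹ = a at aC ax a1
  have oa := orderOf_eq_prime_pow a1 (top a aC)
  have ob := orderOf_eq_prime_pow (fun e => bx (e ▸ one_mem _)) (top b bC)
  have dj := cyc oa ob fun e => bx (zpowers_le.2 ax e)
  have HC : zpowers a ⊔ zpowers b ≤ C := sup_le (zpowers_le.2 aC) (zpowers_le.2 bC)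
  have CH : ∀ k, k ≤ d + 1 → ∀ c ∈ C, c ^ p ^ k = 1 → c ∈ zpowers a ⊔ zpowers b := fun k => by
    induction k with
    | zero => intro _ c _ e; rw [pow_zero, pow_one] at e; exact e ▸ one_mem _
    | succ k ih =>
      intro hk c hc' e
      obtain ⟨j, rfl⟩ := Nat.exists_eq_add_of_le (Nat.le_of_succ_le_succ hk)
      have w : ∀ g ∈ zpowers a ⊔ zpowers b, g ^ p ^ (k + j) ∈
          Pw (zpowers a ⊔ zpowers b) (fun a ha b hb => cc a (HC ha) b (HC hb)) (p ^ k) := fun g hg =>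
        ⟨g ^ p ^ j, pow_mem hg _, by rw [← pow_mul, ← pow_add, add_comm]⟩
      obtain ⟨h, h1, h2⟩ := (gen hU cU hx hz xU bU bx).trans (sup_le (zpowers_le.2 (zpowers_le.2
        (w a (mem_sup_left (mem_zpowers a))) (Xg _ ax a1))) (zpowers_le.2 (w b (mem_sup_right (mem_zpowers b))))) (inU k c hc' e)
      have := ih (by omega) (c * h⁻¹) (mul_mem hc' (inv_mem (HC h1)))
        (by rw [Commute.mul_pow (cc _ hc' _ (inv_mem (HC h1))), inv_pow, h2, mul_inv_cancel])
      simpa using mul_mem this h1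
  have e : zpowers a ⊔ zpowers b = C := le_antisymm HC fun c hc' => CH _ le_rfl c hc' (top c hc')
  refine ⟨d + 1, a, b, by omega, oa, ob, cc a aC b bC, dj, e, ?_, nP⟩
  rw [cP, ← e, H1.card_sup_of_disjoint (zpowers_le.2 (centralizer_le_normalizer _ fun g hg =>
    cc g (zpowers_le.2 aC hg) b bC)) dj, Nat.card_zpowers, Nat.card_zpowers, oa, ob]
  ring

end Cfsg.Agent.IS
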