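import Cfsg.Agent.L0.FOl
import Cfsg.Agent.MQ.A0
import Cfsg.Agent.S0112

/-! A `p`-group with a homocyclic rank two subgroup of index `p`. -/

set_option autoImplicit false

namespace Cfsg.Agent.IS

open Subgroup
open Cfsg.Agent.H23.LF (sup_zp_of_card mem_sup_zp mul_card_le')

namespace Sc2

section
variable {A : Type*} [CommGroup A] (σ : A →* A)

theorem bin {c0 c1 c2 c3 : A} (h0 : σ c0 = c0 * c1) (h1 : σ c1 = c1 * c2) (h2 : σ c2 = c2 * c3) (h3 : σ c3 = c3) (k : ℕ) :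
    σ^[k] c0 = c0 * c1 ^ k * c2 ^ k.choose 2 * c3 ^ k.choose 3 := by
  induction k with
  | zero => simp
  | succ k ih =>
    rw [Function.iterate_succ_apply', ih]
    simp only [map_mul, map_pow, h0, h1, h2, h3, mul_pow, Nat.choose_succ_succ' k 1, Nat.choose_succ_succ' k 2,
      Nat.choose_one_right, pow_add, pow_one]
    simp only [mul_assoc, mul_comm, mul_left_comm]

theorem zp [Finite A] {p : ℕ} [hp : Fact p.Prime] {x y : A} (hx : orderOf x = p) (hy : y ∈ zpowers x) (h1 : y ≠ 1) :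
    zpowers x ≤ zpowers y := by
  have : orderOf y = p := orderOf_eq_prime (by
    obtain ⟨k, rfl⟩ := hy
    show (x ^ k) ^ p = 1
    rw [← zpow_natCast, ← zpow_mul, mul_comm, zpow_mul, zpow_natCast, ← hx, pow_orderOf_eq_one, one_zpow]) h1
  exact (eq_of_le_of_card_ge (zpowers_le.2 hy) (by rw [Nat.card_zpowers, Nat.card_zpowers, this, hx])).ge

theorem core [Finite A] {p : ℕ} [hp : Fact p.Prime] (h2 : p ≠ 2) (hσ : ∀ c, σ^[p] c = c) {x u0 : A} (hx : orderOf x = p)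
    (sx : σ x = x) (hU : ∀ u, u ^ p = 1 → u⁻¹ * σ u ∈ zpowers x) (hF : ∀ u, u ^ p = 1 → σ u = u → u ∈ zpowers x)
    (c0 : A) (e0 : c0 ^ p = u0) (p0 : u0 ^ p = 1) (n0 : σ u0 ≠ u0) (hA : IsPGroup p A) :
    p = 3 ∧ ∀ y, σ y = y → y ∈ zpowers x := by
  have fx : ∀ y ∈ zpowers x, σ y = y ∧ y ^ p = 1 := by
    rintro _ ⟨k, rfl⟩
    refine ⟨by rw [map_zpow, sx], ?_⟩
    show (x ^ k) ^ p = 1
    rw [← zpow_natCast, ← zpow_mul, mul_comm, zpow_mul, zpow_natCast, ← hx, pow_orderOf_eq_one, one_zpow]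
  set c1 := c0⁻¹ * σ c0 with h1
  set c2 := c1⁻¹ * σ c1 with h2'
  set c3 := c2⁻¹ * σ c2 with h3
  have a1 : c1 ^ p = u0⁻¹ * σ u0 := by rw [h1, mul_pow, inv_pow, ← map_pow, e0]
  have a1x : c1 ^ p ∈ zpowers x := a1 ▸ hU u0 p0
  have a1n : c1 ^ p ≠ 1 := fun e => n0 (by rw [a1, inv_mul_eq_one] at e; exact e.symm)
  have a2 : c2 ^ p = 1 := by rw [h2', mul_pow, inv_pow, ← map_pow, (fx _ a1x).1, inv_mul_cancel]
  have a3 : c3 ∈ zpowers x := hU c2 a2
  have b := bin σ (c0 := c0) (c1 := c1) (c2 := c2) (c3 := c3) (by rw [h1]; group) (by rw [h2']; group)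
    (by rw [h3]; group) (fx _ a3).1 p
  have h3p : 3 ≤ p := by have := hp.out.two_le; omega
  obtain ⟨j, hj⟩ := hp.out.dvd_choose_self (k := 2) two_ne_zero (by omega)
  rw [hσ, hj, pow_mul c2, a2, one_pow, mul_one, mul_assoc, left_eq_mul] at b
  have e3 : p = 3 := by
    by_contra n
    obtain ⟨j, hj⟩ := hp.out.dvd_choose_self (k := 3) (by omega) (by omega)
    rw [hj, pow_mul c3, (fx _ a3).2, one_pow, mul_one] at b
    exact a1n b
  have n3 : c3 ≠ 1 := fun e => a1n (by rwa [e, one_pow, mul_one] at b)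
  have k1 : ∀ y, σ y = y → (y ^ p) ^ p = 1 → y ^ p = 1 := fun y hy hy' => by
    by_contra n
    obtain ⟨j, hj⟩ := zp hx (hF _ hy' (by rw [map_pow, hy])) n a1x
    have u1 : (c1 * (y ^ j)⁻¹) ^ p = 1 := by
      rw [mul_pow, ← hj, inv_pow, ← zpow_natCast (y ^ j), ← zpow_mul, mul_comm j, zpow_mul, zpow_natCast]
      exact mul_inv_cancel _
    have u2 := hU _ u1
    rw [map_mul, map_inv, map_zpow, hy, mul_inv_rev, inv_inv, mul_comm (σ c1), ← mul_assoc, mul_right_comm (y ^ j),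
      mul_inv_cancel, one_mul] at u2
    exact n3 (by rw [h3, (fx _ u2).1, inv_mul_cancel])
  have k2 : ∀ k y, σ y = y → y ^ p ^ (k + 1) = 1 → y ^ p = 1 := fun k => by
    induction k with
    | zero => exact fun y _ h => by simpa using h
    | succ k ih =>
      exact fun y hy h => k1 y hy (ih _ (by rw [map_pow, hy]) (by rw [← pow_mul, ← pow_succ', h]))
  refine ⟨e3, fun y hy => hF y ?_ hy⟩
  obtain ⟨k, hk⟩ := hA y
  exact k2 k y hy (by rw [pow_succ, pow_mul, hk, one_pow])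

end

theorem dv {G : Type*} [Group G] {p e : ℕ} (hp : p.Prime) (he : 2 ≤ e) {a : G} (ha : orderOf a = p ^ e) {i : ℤ}
    (h : (a ^ i) ^ p = 1) : ∃ k : ℤ, i = k * p := by
  rw [← zpow_natCast, ← zpow_mul, ← orderOf_dvd_iff_zpow_eq_one, ha] at h
  have h1 : ((p : ℤ) * p) ∣ i * p := Dvd.dvd.trans (by
    rw [← pow_two]; exact_mod_cast pow_dvd_pow p he) h
  obtain ⟨k, hk⟩ := Int.dvd_of_mul_dvd_mul_right (by exact_mod_cast hp.ne_zero) h1
  exact ⟨k, by rw [hk, mul_comm]⟩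

end Sc2

open Sc2

theorem sc2 {G : Type*} [Group G] [Finite G] {p : ℕ} [hp' : Fact p.Prime] (hp : p ≠ 2) (P : Sylow p G)
    (hn : (P : Subgroup G).Normal) (hr : Cfsg.PRankLE p 2 G) {x : G} (hxP : x ∈ (P : Subgroup G)) (hx : orderOf x = p)
    (hz : x ∈ center G) (U : Subgroup G) (hUP : U ≤ P) (hU : Cfsg.IsElementaryAbelian p U) (cU : Nat.card U = p ^ 2)
    (nU : U.Normal) (e : ℕ) (a b : G) (he : 2 ≤ e) (ha : orderOf a = p ^ e) (hb : orderOf b = p ^ e) (ab : a * b = b * a)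
    (h0 : zpowers a ⊓ zpowers b = ⊥) (h1 : zpowers a ⊔ zpowers b = (P : Subgroup G) ⊓ centralizer (U : Set G))
    (cP : Nat.card (P : Subgroup G) = p ^ (2 * e + 1)) (hne : ¬ (P : Subgroup G) ≤ centralizer (U : Set G)) :
    p = 3 ∧ ∃ k : ℕ, 2 ≤ k ∧ Nat.card (P : Subgroup G) = 3 ^ (2 * k + 1) ∧
      ∃ _ : Group.IsNilpotent ↥(P : Subgroup G), Group.nilpotencyClass ↥(P : Subgroup G) = 2 * k := by
  have pp := hp'.out
  obtain ⟨s, sP, sC⟩ := SetLike.not_le_iff_exists.1 hne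
  set C := (P : Subgroup G) ⊓ centralizer (U : Set G) with hC
  haveI : C.Normal := inferInstance
  have cab : Commute a b := ab
  have rep : ∀ c ∈ C, ∃ i j : ℤ, c = a ^ i * b ^ j := fun c hc => by
    rw [← h1] at hc
    obtain ⟨_, ⟨i, rfl⟩, k, rfl⟩ := mem_sup_zp (centralizer_le_normalizer _ (by
      rintro _ ⟨i, rfl⟩; exact (cab.zpow_left i).eq)) hc
    exact ⟨i, k, by simp⟩
  have cm : ∀ c ∈ C, ∀ d ∈ C, c * d = d * c := fun c hc d hd => by
    obtain ⟨i, j, rfl⟩ := rep c hc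
    obtain ⟨k, l, rfl⟩ := rep d hd
    exact (((Commute.zpow_zpow_self a i k).mul_right (cab.zpow_zpow i l)).mul_left
      ((cab.symm.zpow_zpow j k).mul_right (Commute.zpow_zpow_self b j l))).eq
  have aC : zpowers a ≤ C := h1 ▸ le_sup_left
  have bC : zpowers b ≤ C := h1 ▸ le_sup_right
  have sC' : s ∉ C := fun h => sC h.2
  have c1 : p ^ e * p ^ e ≤ Nat.card C := by
    have := Nat.card_le_card_of_injective (fun g : zpowers a × zpowers b => (⟨g.1 * g.2, mul_mem (aC g.1.2) (bC g.2.2)⟩ : C))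
      fun g g' h => mul_injective_of_disjoint (disjoint_iff.2 h0) (congrArg Subtype.val h)
    rwa [Nat.card_prod, Nat.card_zpowers, Nat.card_zpowers, ha, hb] at this
  have c2 := mul_card_le' P.isPGroup' (lt_of_le_of_ne inf_le_left fun h => sC' (h.ge sP) : C < P)
  have eP : p ^ (2 * e + 1) = p * (p ^ e * p ^ e) := by ring
  have c3 : Nat.card C = p ^ e * p ^ e := le_antisymm (Nat.le_of_mul_le_mul_left (by rwa [cP, eP] at c2) pp.pos) c1
  have ri : C.relIndex P = p := by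
    have := H24.card_mul_relIndex (inf_le_left : C ≤ P)
    rw [c3, cP, eP, mul_comm p] at this
    exact Nat.eq_of_mul_eq_mul_left (Nat.mul_pos (pow_pos pp.pos _) (pow_pos pp.pos _)) this
  have sp : s ^ p ∈ C := ri ▸ C.pow_relIndex_mem sP
  have zx : ∀ y ∈ zpowers x, ∀ g, g * y = y * g := fun y hy => mem_center_iff.1 (zpowers_le.2 hz hy)
  have xC : x ∈ C := ⟨hxP, fun g _ => zx x (mem_zpowers x) g⟩
  have xp : x ^ p = 1 := hx ▸ pow_orderOf_eq_one x
  have om : ∀ u ∈ C, u ^ p = 1 → u ∈ U := fun u hu hu' => by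
    let V : Subgroup G :=
      { carrier := {c | c ∈ C ∧ c ^ p = 1}
        one_mem' := ⟨one_mem _, one_pow _⟩
        mul_mem' := fun {c d} hc hd => ⟨mul_mem hc.1 hd.1, by
          rw [Commute.mul_pow (cm c hc.1 d hd.1), hc.2, hd.2, one_mul]⟩
        inv_mem' := fun {c} hc => ⟨inv_mem hc.1, by rw [inv_pow, hc.2, inv_one]⟩ }
    have le : U ≤ V := fun v hv => ⟨⟨hUP hv, fun w hw => congrArg Subtype.val (hU.1.is_comm.comm ⟨w, hw⟩ ⟨v, hv⟩)⟩, hU.2 v hv⟩
    have := hr V ⟨⟨fun c d => Subtype.ext (cm _ c.2.1 _ d.2.1)⟩⟩ fun c hc => hc.2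
    exact (eq_of_le_of_card_ge le (cU ▸ this)).ge ⟨hu, hu'⟩
  have xU : zpowers x ≤ U := zpowers_le.2 (om x xC xp)
  have cx : Nat.card (zpowers x) = p := by rw [Nat.card_zpowers, hx]
  have fU : ∀ u ∈ U, s * u = u * s → u ∈ zpowers x := fun u hu e => by
    have lt : U ⊓ centralizer {s} < U := lt_of_le_of_ne inf_le_left fun h => sC fun w hw =>
      mem_centralizer_singleton_iff.1 (h.ge hw).2
    have := mul_card_le' (P.isPGroup'.to_le hUP) lt
    rw [cU, pow_two] at this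
    exact (eq_of_le_of_card_ge (le_inf xU fun y hy => mem_centralizer_singleton_iff.2 (zx y hy s).symm)
      (cx ▸ Nat.le_of_mul_le_mul_left this pp.pos)).ge ⟨hu, mem_centralizer_singleton_iff.2 e.symm⟩
  have tU : ∀ u ∈ U, u⁻¹ * (s * u * s⁻¹) ∈ zpowers x := fun u hu => by
    haveI : (zpowers x).Normal := ⟨fun y hy g => by rwa [zx y hy g, mul_inv_cancel_right]⟩
    exact MQ.A0x.triv P.isPGroup' (A := (zpowers x).subgroupOf P) (B := U.subgroupOf P) (a := 1)
      (by rw [H24.card_subgroupOf (xU.trans hUP), cx, pow_one]) (by rw [H24.card_subgroupOf hUP, cU])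
      (comap_mono xU) le_normalizer_of_normal (m := ⟨s, sP⟩) (le_normalizer_of_normal (mem_top _))
      (le_normalizer_of_normal (mem_top _)) (b := ⟨u, hUP hu⟩) hu
  obtain ⟨u0, uU, un⟩ : ∃ u ∈ U, u * s ≠ s * u := by
    by_contra! c; exact sC c
  have uC : u0 ∈ C := ⟨hUP uU, fun w hw => congrArg Subtype.val (hU.1.is_comm.comm ⟨w, hw⟩ ⟨u0, uU⟩)⟩
  obtain ⟨c0, cC, e0⟩ : ∃ c ∈ C, c ^ p = u0 := by
    obtain ⟨i, j, rfl⟩ := rep u0 uC
    have q := hU.2 _ uU
    rw [(cab.zpow_zpow i j).mul_pow] at q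
    have q1 : (a ^ i) ^ p = 1 := mem_bot.1 (h0.le ⟨pow_mem (zpow_mem (mem_zpowers a) i) p, by
      rw [eq_inv_of_mul_eq_one_left q]; exact (zpowers b).inv_mem (pow_mem (zpow_mem (mem_zpowers b) j) p)⟩)
    rw [q1, one_mul] at q
    obtain ⟨k, rfl⟩ := dv pp he ha q1
    obtain ⟨l, rfl⟩ := dv pp he hb q
    exact ⟨a ^ k * b ^ l, mul_mem (aC (zpow_mem (mem_zpowers a) k)) (bC (zpow_mem (mem_zpowers b) l)), by
      rw [(cab.zpow_zpow k l).mul_pow, zpow_mul, zpow_mul, zpow_natCast, zpow_natCast]⟩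
  have key : p = 3 ∧ ∀ y ∈ C, s * y = y * s → y ∈ zpowers x := by
    letI : CommGroup C := { (inferInstance : Group C) with mul_comm := fun c d => Subtype.ext (cm _ c.2 _ d.2) }
    let σ : C →* C := MonoidHom.mk' (fun c => ⟨s * c * s⁻¹, Normal.conj_mem inferInstance _ c.2 s⟩)
      fun c d => Subtype.ext (by simp)
    have v : ∀ c : C, (σ c : G) = s * c * s⁻¹ := fun _ => rfl
    have it : ∀ (k : ℕ) (c : C), (σ^[k] c : G) = s ^ k * c * (s ^ k)⁻¹ := fun k c => by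
      induction k with
      | zero => simp
      | succ k ih => rw [Function.iterate_succ_apply', v, ih]; group
    have zz : ∀ y : C, (y : G) ∈ zpowers x ↔ y ∈ zpowers (⟨x, xC⟩ : C) := fun y =>
      ⟨fun ⟨k, hk⟩ => ⟨k, Subtype.ext hk⟩, fun ⟨k, hk⟩ => ⟨k, congrArg Subtype.val hk⟩⟩
    have := core σ hp (fun c => Subtype.ext (by rw [it, cm _ sp _ c.2, mul_inv_cancel_right])) (x := ⟨x, xC⟩)
      (u0 := ⟨u0, uC⟩) ((orderOf_mk x xC).trans hx)
      (Subtype.ext (by rw [v, zx x (mem_zpowers x) s, mul_inv_cancel_right]))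
      (fun u hu => (zz _).1 (tU u (om u u.2 (congrArg Subtype.val hu))))
      (fun u hu e => (zz _).1 (fU u (om u u.2 (congrArg Subtype.val hu)) (mul_inv_eq_iff_eq_mul.1 (congrArg Subtype.val e))))
      ⟨c0, cC⟩ (Subtype.ext e0) (Subtype.ext (hU.2 _ uU))
      (fun e => un (mul_inv_eq_iff_eq_mul.1 (congrArg Subtype.val e)).symm) (P.isPGroup'.to_le inf_le_left)
    exact ⟨this.1, fun y hy e => (zz ⟨y, hy⟩).2 (this.2 _ (Subtype.ext (mul_inv_eq_iff_eq_mul.2 e)))⟩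
  set D := (P : Subgroup G) ⊓ centralizer {s} with hD
  have xD : zpowers x ≤ D := le_inf (xU.trans hUP) fun y hy => mem_centralizer_singleton_iff.2 (zx y hy s).symm
  have sD : s ∈ D := ⟨sP, mem_centralizer_singleton_iff.2 rfl⟩
  have CD : C ⊓ D = zpowers x := le_antisymm (fun y hy => key.2 y hy.1 (mem_centralizer_singleton_iff.1 hy.2.2).symm)
    (le_inf (zpowers_le.2 xC) xD)
  have cD : Nat.card D = p ^ 2 := by
    have d1 := mul_card_le' (P.isPGroup'.to_le inf_le_left)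
      (lt_of_le_of_ne xD fun h => sC' (zpowers_le.2 xC (h.ge sD)) : zpowers x < D)
    have d2 := H24.card_inf_mul_relIndex C D
    have d3 := relIndex_le_of_le_right (H := C) (inf_le_left : D ≤ P) (by rw [ri]; exact pp.ne_zero)
    rw [CD, cx] at d2
    rw [cx] at d1
    rw [ri] at d3
    rw [pow_two]
    exact le_antisymm (d2 ▸ Nat.mul_le_mul_left _ d3) d1
  have gen := sup_zp_of_card P.isPGroup' (inf_le_left : C ≤ P) (by rw [cP, c3, eP]) sP sC'
  have cl := S0112.result (X := (P : Subgroup G)) (2 * e + 1) cP (D.subgroupOf P)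
    (by rw [H24.card_subgroupOf inf_le_left, cD]) (le_antisymm (fun g hg => ⟨g.2, mem_centralizer_singleton_iff.2
      (congrArg Subtype.val (hg ⟨s, sP⟩ sD)).symm⟩) fun g hg d hd => Subtype.ext (by
        obtain ⟨c, hc, k, ek⟩ := mem_sup_zp (le_normalizer_of_normal (mem_top s)) (gen.ge g.2)
        have g1 : (g : G) * s = s * g := mem_centralizer_singleton_iff.1 hg.2
        have d1 : Commute (d : G) s := mem_centralizer_singleton_iff.1 hd.2
        have c1 : c ∈ zpowers x := key.2 c hc (by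
          have : c = g * (s ^ k)⁻¹ := by rw [ek]; group
          rw [this, ← mul_assoc, ← g1]; group)
        show (d : G) * g = g * d
        rw [ek]
        exact (Commute.mul_right (zx c c1 d) (by first | exact d1.pow_right k | exact d1.zpow_right k)).eq))
  exact ⟨key.1, e, he, by rw [cP, key.1], P.isPGroup'.isNilpotent, cl⟩

end Cfsg.Agent.IS
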