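import Cfsg.Agent.IS.Sc1
import Cfsg.Agent.IS.Sc2

/-! The two possible Sylow subgroups with a homocyclic subgroup of index `p`. -/

set_option autoImplicit false

namespace Cfsg.Agent.IS

open Subgroup

theorem sc {G : Type*} [Group G] [Finite G] {p : ℕ} [Fact p.Prime] (hp : p ≠ 2) (P : Sylow p G)
    (hn : (P : Subgroup G).Normal) (hr : Cfsg.PRankLE p 2 G) {x : G} (hxP : x ∈ (P : Subgroup G)) (hx : orderOf x = p)
    (hz : x ∈ center G) (hc : (P : Subgroup G) ≤ commutator G) (U : Subgroup G) (hUP : U ≤ P)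
    (hU : Cfsg.IsElementaryAbelian p U) (cU : Nat.card U = p ^ 2)
    (nU : U.Normal) (e : ℕ) (a b : G) (he : 1 ≤ e) (ha : orderOf a = p ^ e) (hb : orderOf b = p ^ e) (ab : a * b = b * a)
    (h0 : zpowers a ⊓ zpowers b = ⊥) (h1 : zpowers a ⊔ zpowers b = (P : Subgroup G) ⊓ centralizer (U : Set G))
    (cP : Nat.card (P : Subgroup G) = p ^ (2 * e + 1)) (hne : ¬ (P : Subgroup G) ≤ centralizer (U : Set G)) :
    (Cfsg.IsExtraspecial p ↥(P : Subgroup G) ∧ Nat.card (P : Subgroup G) = p ^ 3 ∧ ∀ y ∈ (P : Subgroup G), y ^ p = 1) ∨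
    (p = 3 ∧ ∃ k : ℕ, 2 ≤ k ∧ Nat.card (P : Subgroup G) = 3 ^ (2 * k + 1) ∧
      ∃ _ : Group.IsNilpotent ↥(P : Subgroup G), Group.nilpotencyClass ↥(P : Subgroup G) = 2 * k) := by
  rcases he.eq_or_lt with rfl | he
  · exact .inl (sc1 hp P hxP hx hz hc hn cP fun h => hne fun g hg u hu => h u (hUP hu) g hg)
  · exact .inr (sc2 hp P hn hr hxP hx hz U hUP hU cU nU e a b he ha hb ab h0 h1 cP hne)

end Cfsg.Agent.IS
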