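import Cfsg.Agent.H26.ES4

set_option autoImplicit false

namespace Cfsg.Agent.IS

open Subgroup
open scoped commutatorElement

theorem sc1 {G : Type*} [Group G] [Finite G] {p : ℕ} [hp' : Fact p.Prime] (hp : p ≠ 2) (P : Sylow p G)
    {x : G} (hxP : x ∈ (P : Subgroup G)) (hx : orderOf x = p) (hz : x ∈ center G)
    (hc : (P : Subgroup G) ≤ commutator G) (hn : (P : Subgroup G).Normal)
    (cP : Nat.card (P : Subgroup G) = p ^ 3)
    (na : ¬ ∀ a ∈ (P : Subgroup G), ∀ b ∈ (P : Subgroup G), a * b = b * a) :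
    Cfsg.IsExtraspecial p ↥(P : Subgroup G) ∧ Nat.card (P : Subgroup G) = p ^ 3 ∧
      ∀ y ∈ (P : Subgroup G), y ^ p = 1 := by
  have hE : Cfsg.IsExtraspecial p ↥(P : Subgroup G) := H26.isExtraspecial_of_card_cube cP
    (fun h => na fun a ha b hb => congrArg Subtype.val (h.1.1 ⟨a, ha⟩ ⟨b, hb⟩))
  refine ⟨hE, cP, ?_⟩
  obtain ⟨⟨hP, hF, hD⟩, hZ⟩ := hE
  have zx : center (P : Subgroup G) = zpowers (⟨x, hxP⟩ : (P : Subgroup G)) := by
    symm
    apply eq_of_le_of_card_ge
    · exact zpowers_le.2 (mem_center_iff.2 fun g => Subtype.ext (mem_center_iff.1 hz g))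
    · rw [hZ, Nat.card_zpowers, ← Subgroup.orderOf_coe]; exact hx.ge
  have cen : ∀ y : (P : Subgroup G), y ∈ center (P : Subgroup G) → (y : G) ∈ center G ∧ y ^ p = 1 := by
    intro y hy
    refine ⟨?_, ?_⟩
    · rw [zx] at hy
      obtain ⟨k, rfl⟩ := hy
      exact zpow_mem hz k
    · have := pow_card_eq_one' (G := center (P : Subgroup G)) (x := ⟨y, hy⟩)
      rw [hZ] at this
      exact congrArg Subtype.val this
  have cm : ∀ a b : (P : Subgroup G), ⁅a, b⁆ ∈ center (P : Subgroup G) := fun a b =>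
    hD ▸ commutator_mem_commutator (mem_top a) (mem_top b)
  have mul : ∀ a b : (P : Subgroup G), (a * b) ^ p = a ^ p * b ^ p := by
    intro a b
    obtain ⟨c, hc⟩ : ∃ c, c = ⁅b, a⁆ := ⟨_, rfl⟩
    have cc : ∀ g, Commute g c := fun g => mem_center_iff.1 (hc ▸ cm b a) g
    have ba : b * a = c * (a * b) := by rw [hc, commutatorElement_def]; group
    have h1 : ∀ n : ℕ, b ^ n * a = c ^ n * (a * b ^ n) := by
      intro n
      induction n with
      | zero => simp
      | succ n ih =>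
        calc b ^ (n + 1) * a = b ^ n * (b * a) := by rw [pow_succ, mul_assoc]
          _ = c * (b ^ n * a) * b := by rw [ba, ← mul_assoc, (cc _).eq]; simp only [mul_assoc]
          _ = _ := by rw [ih, pow_succ' c, pow_succ b]; simp only [mul_assoc]
    have h2 : ∀ n : ℕ, (a * b) ^ n = c ^ n.choose 2 * (a ^ n * b ^ n) := by
      intro n
      induction n with
      | zero => simp
      | succ n ih =>
        have e : (n + 1).choose 2 = n.choose 2 + n := by
          rw [Nat.choose_succ_succ' n 1, Nat.choose_one_right, add_comm]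
        calc (a * b) ^ (n + 1) = c ^ n.choose 2 * (a ^ n * (b ^ n * a) * b) := by
              rw [pow_succ, ih]; simp only [mul_assoc]
          _ = _ := by
              rw [h1, ← mul_assoc (a ^ n), ((cc (a ^ n)).pow_right n).eq, e, pow_add, pow_succ a,
                pow_succ b]
              simp only [mul_assoc]
    obtain ⟨k, hk⟩ : p ∣ p.choose 2 :=
      hp'.out.dvd_choose_self two_ne_zero (lt_of_le_of_ne hp'.out.two_le (Ne.symm hp))
    rw [h2, hk, pow_mul, (cen c (hc ▸ cm b a)).2, one_pow, one_mul]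
  have pw : ∀ a : (P : Subgroup G), a ^ p ∈ center (P : Subgroup G) := by
    intro a
    refine mem_center_iff.2 fun g => ?_
    have h1 : g * a * g⁻¹ = ⁅g, a⁆ * a := by rw [commutatorElement_def]; group
    have h2 : (g * a * g⁻¹) ^ p = a ^ p := by rw [h1, mul, (cen _ (cm g a)).2, one_mul]
    rw [conj_pow] at h2
    exact mul_inv_eq_iff_eq_mul.1 h2
  let K : Subgroup G :=
    { carrier := {y | y ∈ (P : Subgroup G) ∧ y ^ p = 1}
      one_mem' := ⟨one_mem _, one_pow _⟩
      mul_mem' := fun {a b} ha hb => ⟨mul_mem ha.1 hb.1, by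
        have := congrArg Subtype.val (mul ⟨a, ha.1⟩ ⟨b, hb.1⟩)
        simpa [ha.2, hb.2] using this⟩
      inv_mem' := fun {a} ha => ⟨inv_mem ha.1, by rw [inv_pow, ha.2, inv_one]⟩ }
  have foc : (P : Subgroup G).focalSubgroup ≤ K := by
    rw [focalSubgroup_def, closure_le]
    rintro _ ⟨hg, y, hy, u, rfl⟩
    refine ⟨hg, ?_⟩
    have m : u * y⁻¹ * u⁻¹ ∈ (P : Subgroup G) := hn.conj_mem _ (inv_mem hy) u
    have e := congrArg Subtype.val (mul ⟨y, hy⟩ ⟨_, m⟩)
    have z : y ^ p ∈ center G := (cen _ (pw ⟨y, hy⟩)).1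
    have e' : (y * (u * y⁻¹ * u⁻¹)) ^ p = y ^ p * (u * y⁻¹ * u⁻¹) ^ p := e
    rw [conj_pow, inv_pow, mem_center_iff.1 (inv_mem z) u] at e'
    rw [commutatorElement_def, show y * u * y⁻¹ * u⁻¹ = y * (u * y⁻¹ * u⁻¹) by group, e']
    group
  intro y hy
  rw [← commutator_inf_eq_focalSubgroup P] at foc
  exact (foc ⟨hc hy, hy⟩).2

end Cfsg.Agent.IS
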