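import Cfsg.Agent.H2.Basic
import Cfsg.Prelude.Def_OddOrderLocal
import Cfsg.Prelude.Def_Transfer

/-!
# No wreath quotient when the centralizer of a normal subgroup of type (3,3) is metacyclic
-/

set_option autoImplicit false

namespace Cfsg.Agent.IS

open Subgroup Function
open scoped commutatorElement

namespace Y3

/-- The wreath product of two groups of order three. -/
def W : Type := (ZMod 3 → ZMod 3) × ZMod 3

instance : DecidableEq W := inferInstanceAs (DecidableEq ((ZMod 3 → ZMod 3) × ZMod 3))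
instance : Fintype W := inferInstanceAs (Fintype ((ZMod 3 → ZMod 3) × ZMod 3))
instance : Mul W := ⟨fun x y => (fun i => y.1 i + x.1 (i + y.2), x.2 + y.2)⟩
instance : One W := ⟨(fun _ => 0, 0)⟩
instance : Inv W := ⟨fun x => (fun i => - x.1 (i - x.2), - x.2)⟩

theorem m1 (x y : W) (i : ZMod 3) : (x * y).1 i = y.1 i + x.1 (i + y.2) := rfl
theorem m2 (x y : W) : (x * y).2 = x.2 + y.2 := rfl
theorem ext' {x y : W} (h1 : ∀ i, x.1 i = y.1 i) (h2 : x.2 = y.2) : x = y := Prod.ext (funext h1) h2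

instance : Group W := Group.ofLeftAxioms
  (fun x y z => ext' (fun i => by simp only [m1, m2]; rw [add_assoc (z.1 i), add_assoc i, add_comm z.2])
    (by simp only [m2]; ring))
  (fun x => ext' (fun i => by rw [m1]; exact add_zero _) (by rw [m2]; exact zero_add _))
  (fun x => ext' (fun i => by
      rw [m1]; change x.1 i + - x.1 (i + x.2 - x.2) = 0; rw [add_sub_cancel_right, add_neg_cancel])
    (by rw [m2]; exact neg_add_cancel _))

def e : W := (fun i => if i = 0 then 1 else 0, 0)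
def s : W := (fun _ => 0, 1)
def z : W := (fun _ => 1, 0)

theorem cW : Nat.card W = 81 := by
  rw [Nat.card_eq_fintype_card]; rfl

theorem f1 : ∀ x : W, x ^ 3 = 1 ∨ x ^ 3 = z ∨ x ^ 3 = z ^ 2 := by decide +kernel
theorem f2 : ∀ x : W, x ^ 3 ≠ 1 → (z = x ^ 3 ∨ z = x ^ 6) ∧ ∀ a : Fin 9, e * x * e⁻¹ ≠ x ^ (a : ℕ) := by
  decide +kernel
theorem f3 : ∀ x : W, x ^ 9 = 1 := by decide +kernel
theorem f4 : ∀ x : W, x * (e * s * e⁻¹ * s⁻¹) = (e * s * e⁻¹ * s⁻¹) * x → x ^ 3 = 1 := by decide +kernel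

theorem toW (T : Sylow 3 (Equiv.Perm (Fin (3 ^ 2)))) : ∃ g : T →* W, Surjective g := by
  have cT : Nat.card T = 81 := by
    rw [T.card_eq_multiplicity, Nat.card_eq_fintype_card, Fintype.card_perm]; decide +kernel
  let a : W →* Equiv.Perm (ZMod 3 × ZMod 3) :=
    { toFun := fun v => ⟨fun x => (x.1 + v.2, x.2 + v.1 x.1), fun x => (x.1 - v.2, x.2 - v.1 (x.1 - v.2)),
        fun x => by simp, fun x => by simp⟩
      map_one' := by
        ext x
        · exact add_zero _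
        · exact add_zero _
      map_mul' := fun v w => by
        ext x
        · change x.1 + (v.2 + w.2) = x.1 + w.2 + v.2; ring
        · change x.2 + (w.1 x.1 + v.1 (x.1 + w.2)) = x.2 + w.1 x.1 + v.1 (x.1 + w.2); ring }
  have ha : Injective a := (injective_iff_map_eq_one a).2 fun v hv => by
    refine ext' (fun i => ?_) ?_
    · have := congrArg (fun σ : Equiv.Perm (ZMod 3 × ZMod 3) => (σ (i, 0)).2) hv
      change (0 : ZMod 3) + v.1 i = 0 at this
      rw [zero_add] at this; exact this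
    · have := congrArg (fun σ : Equiv.Perm (ZMod 3 × ZMod 3) => (σ (0, 0)).1) hv
      change (0 : ZMod 3) + v.2 = 0 at this
      rw [zero_add] at this; exact this
  let ε : ZMod 3 × ZMod 3 ≃ Fin (3 ^ 2) := Fintype.equivFinOfCardEq (by simp)
  let b := ε.permCongrHom.toMonoidHom.comp a
  have hb : Injective b := ε.permCongrHom.injective.comp ha
  have hp : IsPGroup 3 b.range := (IsPGroup.of_card (n := 4) (by rw [cW]; norm_num)).of_surjective _
    b.rangeRestrict_surjective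
  obtain ⟨S, hS⟩ := hp.exists_le_sylow
  let g : W →* T := (S.equiv T).toMonoidHom.comp ((inclusion hS).comp b.rangeRestrict)
  have hg : Injective g :=
    (S.equiv T).injective.comp ((inclusion_injective hS).comp fun _ _ h => hb (congrArg Subtype.val h))
  have hg' : Bijective g := (Nat.bijective_iff_injective_and_card g).2 ⟨hg, by rw [cW, cT]⟩
  exact ⟨(MulEquiv.ofBijective g hg').symm.toMonoidHom, (MulEquiv.ofBijective g hg').symm.surjective⟩

theorem pw {G : Type*} [Group G] {x : G} {n : ℕ} (hx : x ^ (3 ^ n) = 1) {t : ℤ} (ht : ¬ (3 : ℤ) ∣ t) :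
    ∃ u : ℤ, (x ^ t) ^ u = x := by
  have h : IsCoprime ((3 : ℤ) ^ n) t :=
    ((Prime.coprime_iff_not_dvd Int.prime_three).2 ht).pow_left
  obtain ⟨a, b, e⟩ := h
  refine ⟨b, ?_⟩
  have h1 : x ^ ((3 : ℤ) ^ n) = 1 := by exact_mod_cast hx
  calc (x ^ t) ^ b = (x ^ ((3 : ℤ) ^ n)) ^ a * (x ^ t) ^ b := by rw [h1, one_zpow, one_mul]
    _ = x ^ (a * 3 ^ n + b * t) := by rw [← zpow_mul, ← zpow_mul, ← zpow_add, mul_comm a, mul_comm b]
    _ = x := by rw [e, zpow_one]

theorem idx {P : Type*} [Group P] [Finite P] (hP : IsPGroup 3 P) (U : Subgroup P) [hn : U.Normal]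
    (h3 : ∀ a ∈ U, a ^ 3 = 1) (cU : Nat.card U = 3 ^ 2) : (centralizer (U : Set P)).index ≤ 3 := by
  haveI := hP.isNilpotent
  have hU : U ≠ ⊥ := fun h => by rw [h, card_bot] at cU; omega
  obtain ⟨⟨z, hzU, hz⟩, z1⟩ := ne_bot_iff_exists_ne_one.1 (H2.inf_center_ne_bot U hU)
  have z1' : z ≠ 1 := fun h => z1 (Subtype.ext h)
  have oz : Nat.card (zpowers z) = 3 := by
    rw [Nat.card_zpowers]; exact orderOf_eq_prime (h3 z hzU) z1'
  have zU : zpowers z ≤ U := (zpowers_le).2 hzU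
  obtain ⟨u, hu, uz⟩ : ∃ u ∈ U, u ∉ zpowers z := by
    by_contra h
    push Not at h
    have := card_le_of_le (show U ≤ zpowers z from h)
    omega
  have u1 : u ≠ 1 := fun h => uz (h ▸ one_mem _)
  have hD : centralizer ({u} : Set P) ≤ centralizer (U : Set P) := fun g hg => by
    have h1 : zpowers z ≤ U ⊓ centralizer ({g} : Set P) :=
      (zpowers_le).2 ⟨hzU, mem_centralizer_singleton_iff.2 (mem_center_iff.1 hz g).symm⟩
    have h2 : u ∈ U ⊓ centralizer ({g} : Set P) :=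
      ⟨hu, mem_centralizer_singleton_iff.2 (mem_centralizer_singleton_iff.1 hg).symm⟩
    have h4 := card_dvd_of_le (inf_le_left : U ⊓ centralizer ({g} : Set P) ≤ U)
    have h5 := card_dvd_of_le h1
    have h6 : Nat.card ↥(U ⊓ centralizer ({g} : Set P)) ≠ 3 := fun h =>
      uz ((eq_of_le_of_card_ge h1 (by omega)) ▸ h2)
    rw [cU] at h4
    rw [oz] at h5
    have h7 : Nat.card ↥(U ⊓ centralizer ({g} : Set P)) = 9 := by
      have := Nat.le_of_dvd (by norm_num) h4
      generalize Nat.card ↥(U ⊓ centralizer ({g} : Set P)) = m at *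
      interval_cases m <;> omega
    have h8 := eq_of_le_of_card_ge (inf_le_left : U ⊓ centralizer ({g} : Set P) ≤ U) (by omega)
    intro v hv
    have : v ∈ U ⊓ centralizer ({g} : Set P) := h8.symm ▸ hv
    exact mem_centralizer_singleton_iff.1 this.2
  have h1 : (centralizer ({u} : Set P)).index ≤ Nat.card {v : U // v ≠ 1} := by
    refine Nat.card_le_card_of_injective (fun q : P ⧸ centralizer ({u} : Set P) =>
      (⟨⟨q.out * u * q.out⁻¹, hn.conj_mem u hu _⟩, fun h => u1 (by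
        have := congrArg Subtype.val h
        simpa using this)⟩ : {v : U // v ≠ 1})) fun a b e => ?_
    have e1 : a.out * u * a.out⁻¹ = b.out * u * b.out⁻¹ := congrArg (fun v => (v.1 : P)) e
    rw [← a.out_eq, ← b.out_eq]
    refine QuotientGroup.eq.2 (mem_centralizer_singleton_iff.2 ?_)
    calc _ = a.out⁻¹ * (b.out * u * b.out⁻¹) * b.out := by group
      _ = _ := by rw [← e1]; group
  have h2 : Nat.card {v : U // v ≠ 1} < Nat.card U := Finite.card_subtype_lt (x := 1) (by simp)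
  obtain ⟨n, hn⟩ := hP.index (centralizer ({u} : Set P))
  have h4 : n < 2 := (Nat.pow_lt_pow_iff_right (by norm_num : 1 < 3)).1 (by omega)
  have h5 := Nat.le_of_dvd (Nat.pos_of_ne_zero index_ne_zero_of_finite) (index_dvd_of_le hD)
  interval_cases n <;> omega

theorem nc (D : Subgroup W) [D.Normal] (hi : D.index ≤ 3) {K C : W} (hK : K ∈ D) (hC : C ∈ D)
    (dec : ∀ y ∈ D, ∃ a b : ℤ, y = C ^ b * K ^ a) : ¬ Commute K C := fun h => by
  have h1 := D.card_mul_index
  rw [cW] at h1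
  have h2 : Nat.card (W ⧸ D) ∣ 3 := by
    have : D.index ∣ 81 := Dvd.intro_left _ h1
    change D.index ∣ 3
    generalize D.index = m at *
    interval_cases m <;> omega
  haveI : IsCyclic (W ⧸ D) := isCyclic_of_card_dvd_prime h2
  have h3 : e * s * e⁻¹ * s⁻¹ ∈ D := by
    rw [← QuotientGroup.eq_one_iff]
    simp only [QuotientGroup.mk_mul, QuotientGroup.mk_inv]
    rw [IsCyclic.commutative.is_comm.comm (e : W ⧸ D)]; group
  obtain ⟨a, b, hab⟩ := dec _ h3
  have k3 : K ^ 3 = 1 := f4 K (by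
    rw [hab]; exact ((h.zpow_right b).mul_right ((Commute.refl K).zpow_right a)).eq)
  have c3 : C ^ 3 = 1 := f4 C (by
    rw [hab]; exact (((Commute.refl C).zpow_right b).mul_right (h.symm.zpow_right a)).eq)
  have h4 : Nat.card D ≤ Nat.card (zpowers C × zpowers K) :=
    Nat.card_le_card_of_surjective (fun p : zpowers C × zpowers K =>
      (⟨p.1 * p.2, mul_mem (zpowers_le.2 hC p.1.2) (zpowers_le.2 hK p.2.2)⟩ : D)) fun y => by
      obtain ⟨a, b, hy⟩ := dec y y.2
      exact ⟨(⟨C ^ b, b, rfl⟩, ⟨K ^ a, a, rfl⟩), Subtype.ext hy.symm⟩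
  rw [Nat.card_prod, Nat.card_zpowers, Nat.card_zpowers] at h4
  have h5 := orderOf_le_of_pow_eq_one (by norm_num) k3
  have h6 := orderOf_le_of_pow_eq_one (by norm_num) c3
  have h7 : Nat.card D ≤ 9 := h4.trans (Nat.mul_le_mul h6 h5)
  nlinarith

theorem r1 {K C : W} (h : ¬ Commute K C) {r : ℤ} (hr : C * K * C⁻¹ = K ^ r) :
    K ^ 3 ≠ 1 ∧ ∃ t : ℤ, r = 1 + 3 * t ∧ ¬ (3 : ℤ) ∣ t := by
  have it : ∀ n : ℕ, C ^ n * K * (C ^ n)⁻¹ = K ^ (r ^ n) := fun n => by
    induction n with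
    | zero => simp
    | succ n ih =>
      calc _ = C * (C ^ n * K * (C ^ n)⁻¹) * C⁻¹ := by rw [pow_succ']; group
        _ = (C * K * C⁻¹) ^ (r ^ n) := by rw [ih, conj_zpow]
        _ = _ := by rw [hr, ← zpow_mul, pow_succ']
  have h9 := it 9
  rw [f3 C, one_mul, inv_one, mul_one] at h9
  have key : ∀ t : ℤ, r = 1 + t → K ^ t ≠ 1 := fun t ht e1 => h (by
    rw [ht, zpow_add, e1, zpow_one, mul_one] at hr
    exact (mul_inv_eq_iff_eq_mul.1 hr).symm)
  have h3 : (3 : ℤ) ∣ r ^ 9 - 1 := by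
    by_contra hh
    obtain ⟨u, hu⟩ := pw (n := 2) (f3 K) hh
    rw [zpow_sub, ← h9, zpow_one, mul_inv_cancel, one_zpow] at hu
    exact h (hu ▸ Commute.one_left C)
  have h4 : (3 : ℤ) ∣ r - 1 := by
    have : r % 3 = 0 ∨ r % 3 = 1 ∨ r % 3 = 2 := by omega
    have h5 : (r ^ 9 - 1) % 3 = 0 := Int.emod_eq_zero_of_dvd h3
    rcases this with e1 | e1 | e1
    · simp [Int.sub_emod, pow_succ, Int.mul_emod, e1] at h5
    · omega
    · simp [Int.sub_emod, pow_succ, Int.mul_emod, e1] at h5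
  obtain ⟨t, ht⟩ := h4
  refine ⟨fun e1 => key (3 * t) (by omega) ?_, t, by omega, fun ⟨v, hv⟩ => key (9 * v) (by omega) ?_⟩
  · rw [zpow_mul]; have : K ^ (3 : ℤ) = 1 := by exact_mod_cast e1
    rw [this, one_zpow]
  · rw [zpow_mul]; have : K ^ (9 : ℤ) = 1 := by exact_mod_cast f3 K
    rw [this, one_zpow]

theorem main {P : Type*} [Group P] [Finite P] (hP : IsPGroup 3 P) (U : Subgroup P) [U.Normal]
    (hU : Cfsg.IsElementaryAbelian 3 U) (cU : Nat.card U = 3 ^ 2)
    (hm : Cfsg.IsMetacyclic ↥(centralizer (U : Set P))) (f : P →* W) (hf : Surjective f) : False := by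
  have hi := idx hP U hU.2 cU
  set C := centralizer (U : Set P) with hC
  obtain ⟨N, hN, cN, cQ⟩ := hm
  obtain ⟨⟨k, kN⟩, hk0⟩ := cN.exists_generator
  have hk : ∀ x ∈ N, ∃ a : ℤ, x = k ^ a := fun x hx => by
    obtain ⟨a, ha⟩ := hk0 ⟨x, hx⟩
    exact ⟨a, (congrArg Subtype.val ha).symm⟩
  obtain ⟨c0, hc0⟩ := cQ.exists_generator
  obtain ⟨c, rfl⟩ := QuotientGroup.mk_surjective c0
  let π := QuotientGroup.mk' N
  have πk : π k = 1 := (QuotientGroup.eq_one_iff k).2 kN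
  have dec : ∀ y : C, ∃ a b : ℤ, y = c ^ b * k ^ a := fun y => by
    obtain ⟨b, hb⟩ := hc0 (y : C ⧸ N)
    obtain ⟨a, ha⟩ := hk ((c ^ b)⁻¹ * y) (QuotientGroup.eq.1 (by rw [QuotientGroup.mk_zpow]; exact hb))
    exact ⟨a, b, by rw [← ha]; group⟩
  let φ : C →* W := f.comp C.subtype
  haveI : (C.map f).Normal := Normal.map inferInstance f hf
  have hA : ¬ Commute (φ k) (φ c) := nc (C.map f)
    ((Nat.le_of_dvd (Nat.pos_of_ne_zero index_ne_zero_of_finite) (index_map_dvd C hf)).trans hi)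
    (mem_map_of_mem f k.2) (mem_map_of_mem f c.2) (by
      rintro _ ⟨y, hy, rfl⟩
      obtain ⟨a, b, h⟩ := dec ⟨y, hy⟩
      exact ⟨a, b, by rw [← map_zpow, ← map_zpow, ← map_mul, ← h]; rfl⟩)
  obtain ⟨r, hr⟩ := hk _ (hN.conj_mem k kN c)
  obtain ⟨K3, t, rfl, ht⟩ := r1 hA (r := r) (by rw [← map_zpow, ← hr, map_mul, map_mul, map_inv])
  have hCp : IsPGroup 3 C := hP.to_subgroup C
  obtain ⟨n, hn⟩ := hCp (k ^ 3)
  obtain ⟨u, hu⟩ := pw hn ht
  have k3 : k ^ 3 = (c * k * c⁻¹ * k⁻¹) ^ u := by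
    have e1 : c * k * c⁻¹ * k⁻¹ = (k ^ 3) ^ t := by
      rw [hr, ← zpow_natCast, ← zpow_mul]; push_cast; group
    rw [e1, hu]
  obtain ⟨g, hg⟩ := hf e
  let σ : MulAut C := MulAut.conjNormal g
  have cm : ∀ x y : C ⧸ N, x * y = y * x := IsCyclic.commutative.is_comm.comm
  have h1 : π (σ k) ^ 3 = 1 := by
    rw [← map_pow, ← map_pow, k3]
    simp only [map_zpow, map_mul, map_inv]
    rw [cm (π (σ c))]; group
  have h2 : φ (σ k) = e * φ k * e⁻¹ := by
    change f (g * k * g⁻¹) = _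
    rw [map_mul, map_mul, map_inv, hg]; rfl
  obtain ⟨a, b, hab⟩ := dec (σ k)
  obtain ⟨hz, hne⟩ := f2 _ K3
  have zK : z ∈ zpowers (φ k) := by
    rcases hz with h | h <;> rw [h] <;> exact pow_mem (mem_zpowers _) _
  have cK : φ c ^ 3 ∈ zpowers (φ k) := by
    rcases f1 (φ c) with h | h | h <;> rw [h]
    exacts [one_mem _, zK, pow_mem zK _]
  have hb : ¬ (3 : ℤ) ∣ b := fun ⟨v, hv⟩ => by
    have : e * φ k * e⁻¹ ∈ zpowers (φ k) := by
      rw [← h2, hab, map_mul, map_zpow, map_zpow, hv, zpow_mul]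
      exact mul_mem (zpow_mem (by exact_mod_cast cK) _) (zpow_mem (mem_zpowers _) _)
    obtain ⟨m, hm⟩ := mem_powers_iff_mem_zpowers.2 this
    exact hne ⟨m % 9, Nat.mod_lt _ (by norm_num)⟩ (by rw [← hm]; exact pow_eq_pow_mod m (f3 _))
  have c3 : π c ^ 3 = 1 := by
    obtain ⟨m, hm⟩ := hCp (c ^ 3)
    obtain ⟨v, hv⟩ := pw (x := π c ^ 3) (n := m) (by rw [← map_pow, ← map_pow, hm, map_one]) hb
    rw [hab, map_mul, map_zpow, map_zpow, πk, one_zpow, mul_one] at h1
    have e1 : (π c ^ 3) ^ b = 1 := by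
      rw [← h1, ← zpow_natCast, ← zpow_natCast, ← zpow_mul, ← zpow_mul, mul_comm]
    rw [← hv, e1, one_zpow]
  have UC : U ≤ C := fun x hx y hy =>
    congrArg Subtype.val (hU.1.is_comm.comm (⟨y, hy⟩ : U) ⟨x, hx⟩)
  obtain ⟨w, wU, wN⟩ : ∃ w : C, (w : P) ∈ U ∧ w ∉ N := by
    by_contra h
    push Not at h
    have : U ≤ zpowers (k : P) := fun x hx => by
      obtain ⟨a, ha⟩ := hk _ (h ⟨x, UC hx⟩ hx)
      exact ⟨a, (congrArg Subtype.val ha).symm⟩
    haveI := isCyclic_of_le this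
    obtain ⟨x, hx⟩ := IsCyclic.exists_ofOrder_eq_natCard (α := U)
    have := orderOf_le_of_pow_eq_one (x := x) (n := 3) (by norm_num) (Subtype.ext (hU.2 x x.2))
    omega
  obtain ⟨i, j, hw⟩ := dec w
  have hj : ¬ (3 : ℤ) ∣ j := fun ⟨v, hv⟩ => wN (by
    rw [← QuotientGroup.eq_one_iff]
    change π w = 1
    have : π c ^ (3 : ℤ) = 1 := by exact_mod_cast c3
    rw [hw, map_mul, map_zpow, map_zpow, πk, hv, zpow_mul, this]; simp)
  have h4 : Commute k w := Subtype.ext (k.2 w wU).symm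
  have h5 : Commute k (c ^ j) := by
    have : c ^ j = w * (k ^ i)⁻¹ := by rw [hw]; group
    rw [this]; exact h4.mul_right ((Commute.refl k).zpow_right i).inv_right
  obtain ⟨v, hv⟩ := pw (n := 2) (f3 (φ c)) hj
  refine hA ?_
  rw [← hv, ← map_zpow]
  exact (h5.map φ).zpow_right v

end Y3

theorem noW3 {P : Type*} [Group P] [Finite P] (hP : IsPGroup 3 P) (U : Subgroup P) [U.Normal]
    (hU : Cfsg.IsElementaryAbelian 3 U) (cU : Nat.card U = 3 ^ 2)
    (hm : Cfsg.IsMetacyclic ↥(centralizer (U : Set P))) (T : Sylow 3 (Equiv.Perm (Fin (3 ^ 2))))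
    (f : P →* ↥(T : Subgroup (Equiv.Perm (Fin (3 ^ 2))))) (hf : Surjective f) : False := by
  obtain ⟨g, hg⟩ := Y3.toW T
  exact Y3.main hP U hU cU hm (g.comp f) (hg.comp hf)

end Cfsg.Agent.IS
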