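import Cfsg.Prelude.Def_OddOrderLocal

/-! Piece Y5: a group with a metacyclic subgroup of index `≤ p` does not map onto `Z_p ≀ Z_p`, `p ≥ 5`. -/

set_option autoImplicit false

namespace Cfsg.Agent.IS

open Subgroup Function

namespace Y5

theorem meta_surj {R H : Type*} [Group R] [Group H] (hm : Cfsg.IsMetacyclic R) (g : R →* H)
    (hg : Surjective g) : Cfsg.IsMetacyclic H := by
  obtain ⟨N, hN, c1, c2⟩ := hm
  have hN' : (N.map g).Normal := hN.map g hg
  refine ⟨N.map g, hN', isCyclic_of_surjective (g.subgroupMap N) (g.subgroupMap_surjective N), ?_⟩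
  refine isCyclic_of_surjective (QuotientGroup.map N (N.map g) g (le_comap_map g N)) ?_
  intro q
  obtain ⟨h, rfl⟩ := QuotientGroup.mk_surjective q
  obtain ⟨r, rfl⟩ := hg h
  exact ⟨r, rfl⟩

theorem cyc_le {K : Type*} [Group K] [Finite K] [IsCyclic K] {p : ℕ} (hp : 0 < p) (h : ∀ k : K, k ^ p = 1) :
    Nat.card K ≤ p := by
  rw [← IsCyclic.exponent_eq_card]
  exact Nat.le_of_dvd hp (Monoid.exponent_dvd_of_forall_pow_eq_one h)

theorem card_le {K H : Type*} [Group K] [Finite K] [Group H] (hm : Cfsg.IsMetacyclic H) (ι : K →* H)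
    (hι : Injective ι) {p : ℕ} (hp : 0 < p) (h : ∀ k : K, k ^ p = 1) : Nat.card K ≤ p * p := by
  obtain ⟨N, hN, c1, c2⟩ := hm
  let φ : K →* H ⧸ N := (QuotientGroup.mk' N).comp ι
  have e : Nat.card φ.ker * Nat.card φ.range = Nat.card K := by
    rw [← index_ker, card_mul_index]
  have fin : Finite φ.range := Finite.of_surjective _ φ.rangeRestrict_surjective
  have k1 : IsCyclic φ.ker := by
    refine isCyclic_of_injective ((ι.comp φ.ker.subtype).codRestrict N
      (fun k => (QuotientGroup.eq_one_iff _).1 k.2)) ?_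
    intro x y hxy
    exact Subtype.ext (hι (congrArg Subtype.val hxy))
  have h1 : Nat.card φ.ker ≤ p := cyc_le hp fun k => Subtype.ext (h k)
  have h2 : Nat.card φ.range ≤ p := cyc_le hp (by
    rintro ⟨_, k, rfl⟩
    apply Subtype.ext
    change φ k ^ p = 1
    rw [← map_pow, h, map_one])
  rw [← e]
  exact Nat.mul_le_mul h1 h2

def ψ (p : ℕ) : Multiplicative (Fin p → ZMod p) →* Equiv.Perm (Fin p × ZMod p) :=
  MonoidHom.mk' (fun v => Equiv.prodCongrRight (fun i => Equiv.addLeft (v.toAdd i)))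
    (by intro a b; ext ⟨i, x⟩ <;> simp)

theorem ψ_inj (p : ℕ) : Injective (ψ p) := by
  intro a b h
  apply Multiplicative.toAdd.injective
  funext i
  have := congrArg (fun f : Equiv.Perm (Fin p × ZMod p) => (f (i, 0)).2) h
  simpa [ψ] using this

end Y5

open Y5 in
theorem noW5 {P : Type*} [Group P] [Finite P] {p : ℕ} [Fact p.Prime] (h5 : 5 ≤ p) (C : Subgroup P)
    (hi : C.index ≤ p) (hm : Cfsg.IsMetacyclic ↥C) (T : Sylow p (Equiv.Perm (Fin (p ^ 2))))
    (f : P →* ↥(T : Subgroup (Equiv.Perm (Fin (p ^ 2))))) (hf : Surjective f) : False := by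
  have hp : 0 < p := by omega
  have e : Fin p × ZMod p ≃ Fin (p ^ 2) := Fintype.equivFinOfCardEq (by simp [sq])
  let V := Multiplicative (Fin p → ZMod p)
  have cV : Nat.card V = p ^ p := by simp [V]
  have eV : ∀ v : V, v ^ p = 1 := by
    intro v
    apply Multiplicative.toAdd.injective
    funext i
    change (p • (Multiplicative.toAdd v : Fin p → ZMod p)) i = 0
    simp
  let χ : V →* Equiv.Perm (Fin (p ^ 2)) := (Equiv.permCongrHom e).toMonoidHom.comp (ψ p)
  have χi : Injective χ := (Equiv.permCongrHom e).injective.comp (ψ_inj p)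
  have pV : IsPGroup p V := IsPGroup.of_card cV
  have pR : IsPGroup p χ.range := pV.of_surjective _ χ.rangeRestrict_surjective
  obtain ⟨Q, hQ⟩ := pR.exists_le_sylow
  let ε : V →* (T : Subgroup (Equiv.Perm (Fin (p ^ 2)))) :=
    (Sylow.equiv Q T).toMonoidHom.comp (χ.codRestrict Q fun v => hQ ⟨v, rfl⟩)
  have εi : Injective ε := (Sylow.equiv Q T).injective.comp
    fun a b h => χi (congrArg Subtype.val h)
  let D := C.map f
  have hD : D.index ≤ p :=
    (Nat.le_of_dvd (Nat.pos_of_ne_zero index_ne_zero_of_finite) (index_map_dvd C hf)).trans hi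
  have mD : Cfsg.IsMetacyclic D := meta_surj hm (f.subgroupMap C) (f.subgroupMap_surjective C)
  have hK : (D.comap ε).index ≤ p := by
    rw [index_comap]
    refine le_trans ?_ hD
    rw [← relIndex_top_right]
    exact relIndex_le_of_le_right le_top (by rw [relIndex_top_right]; exact index_ne_zero_of_finite)
  have cK : Nat.card (D.comap ε) ≤ p * p :=
    card_le mD ((ε.comp (D.comap ε).subtype).codRestrict D fun k => k.2)
      (fun a b h => Subtype.ext (εi (congrArg Subtype.val h))) hp fun k => Subtype.ext (eV k)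
  have h1 : p ^ p ≤ p ^ 3 := by
    rw [← cV, ← card_mul_index (D.comap ε)]
    calc _ ≤ p * p * p := Nat.mul_le_mul cK hK
      _ = p ^ 3 := by ring
  have := (Nat.pow_le_pow_iff_right (by omega : 1 < p)).1 h1
  omega

end Cfsg.Agent.IS
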